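import Cfsg.Agent.H639.OZ.Val

/-!
# S4842: the end of the middle case `x = 2 n` in type `B_n`/`C_n`, `n = 3, 4`

`V^B ≠ 0`, `∑ dim V^{P_i} = dim V^B` (this is `x = 2 n` by the determinant formula).

* `mid_rgd` : `V^{P_{ij}} = 0` and the three cases;
* `end_three`, `end_four` : mixed linear, or `χ` vanishes on `Ell (A_{n-2} × end)`, or on `Ell A_{n-1}`.
-/

set_option autoImplicit false
set_option linter.unusedSectionVars false

open Cfsg

namespace Cfsg.Agent.H639.OZ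

open CoxeterSystem Cfsg.Agent.ChevalleyStructure.CoxeterGeom Cfsg.Agent.Tits.Roots Cfsg.Agent.Tits.Core
  Cfsg.Agent.Tits.Exchange Cfsg.Agent.Nodes.Reps Cfsg.Agent.Nodes.BNOf Cfsg.Agent.Nodes.StabComb
  Cfsg.Agent.Nodes.Bruhat Cfsg.Agent.Nodes.OppDec Cfsg.Agent.Nodes.LeviDec Cfsg.Agent.H985.VZ Module
  Cfsg.Agent.H898.VZ Cfsg.Agent.H200.VZ

universe u v

variable {I W : Type*} {Y : Type u} [Fintype I] [DecidableEq I] [Group W] [Group Y] {M : CoxeterMatrix I}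
  {cs : CoxeterSystem M W} {A : I → I → ℤ} {h : IsCartan M A} {p : ℕ} {T : Subgroup Y} {n : I → Y}
  {X : (I → ℤ) → Subgroup Y} {V : Type v} [AddCommGroup V] [Module ℂ V] {ρ : Representation ℂ Y V}

/-- the diagram `e 0 - e 1 - … - e (m-2) = e (m-1)` -/
structure TypeB (M : CoxeterMatrix I) {m : ℕ} (e : Fin m ≃ I) : Prop where
  two : ∀ i j : Fin m, (i : ℕ) + 2 ≤ j → M (e i) (e j) = 2
  three : ∀ i j : Fin m, (j : ℕ) = i + 1 → (i : ℕ) + 2 < m → M (e i) (e j) = 3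
  four : ∀ i j : Fin m, (j : ℕ) = i + 1 → (i : ℕ) + 2 = m → M (e i) (e j) = 4

/-- `dim V^{P_K}` -/
noncomputable def dP (cs : CoxeterSystem M W) {A : I → I → ℤ} (h : IsCartan M A) (T : Subgroup Y)
    (X : (I → ℤ) → Subgroup Y) (ρ : Representation ℂ Y V) (K : Set I) : ℕ := finrank ℂ (fx ρ (PJ cs h T X K))

section

variable (R : RGD cs h p T n X) [Finite W] [Finite Y] [FiniteDimensional ℂ V]

include R

theorem mid_rgd (hG : GG cs h T X = ⊤) (hρ : ρ.IsIrreducible) (h0 : fx ρ (RGD.B cs h T X) ≠ ⊥) {m : ℕ} (hm : 2 ≤ m)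
    (e : Fin m ≃ I) (hB : TypeB M e)
    (hdet : ∑ i, finrank ℂ (fx ρ (PJ cs h T X {i})) = finrank ℂ (fx ρ (RGD.B cs h T X))) :
    (∀ i j : I, i ≠ j → fx ρ (PJ cs h T X {i, j}) = ⊥) ∧
    ((finrank ℂ (fx ρ (RGD.B cs h T X)) = 1 ∧
        (∀ i : Fin m, (i : ℕ) + 1 < m → finrank ℂ (fx ρ (PJ cs h T X {e i})) = 0) ∧
        ∀ i : Fin m, (i : ℕ) + 1 = m → finrank ℂ (fx ρ (PJ cs h T X {e i})) = 1) ∨
    (finrank ℂ (fx ρ (RGD.B cs h T X)) = m - 1 ∧
        (∀ i : Fin m, (i : ℕ) + 1 < m → finrank ℂ (fx ρ (PJ cs h T X {e i})) = 1) ∧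
        ∀ i : Fin m, (i : ℕ) + 1 = m → finrank ℂ (fx ρ (PJ cs h T X {e i})) = 0) ∨
    (finrank ℂ (fx ρ (RGD.B cs h T X)) = m ∧ ∀ i : I, finrank ℂ (fx ρ (PJ cs h T X {i})) = 1)) := by
  have : Nontrivial (VB cs h T X ρ) := Submodule.nontrivial_iff_ne_bot.2 h0
  have h1 := mid_equiv (E := VB cs h T X ρ) hm e (q := qq X) (T := TE cs h T n X ρ)
    (fun i => Nat.card_pos) (fun i => quad R i)
    (fun i j hij => comm_two R (hB.two i j hij))
    (fun i j hij hi => ⟨braid_three R (hB.three i j hij hi), qq_eq R (hB.three i j hij hi)⟩)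
    (fun i j hij hi => braid_four R (hB.four i j hij hi)) (fun S hS => irr R hG hρ S hS)
    (by
      rw [Finset.sum_congr rfl fun i _ => finrank_Fq R i]
      exact hdet)
  refine ⟨fun i j hij => (inf_eq_bot_iff R i j).1 (h1.1 i j hij), ?_⟩
  have h2 := h1.2
  simp only [finrank_Fq R] at h2
  exact h2

omit R [Finite W] in
theorem finrank_eq_zero_of_pair (R : RGD cs h p T n X) [Finite W] (hp : ∀ i j : I, i ≠ j → fx ρ (PJ cs h T X {i, j}) = ⊥)
    {K : Set I} {i j : I} (hij : i ≠ j) (hi : i ∈ K) (hj : j ∈ K) : finrank ℂ (fx ρ (PJ cs h T X K)) = 0 := by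
  have h1 : fx ρ (PJ cs h T X K) = ⊥ := by
    rw [eq_bot_iff, ← hp i j hij]
    refine fx_mono (PJ_mono' R ?_)
    rintro x (rfl | rfl)
    · exact hi
    · exact hj
  rw [h1, finrank_bot]

/-- type `B_3`/`C_3` -/
theorem end_three (hG : GG cs h T X = ⊤) (hρ : ρ.IsIrreducible) (h0 : fx ρ (RGD.B cs h T X) ≠ ⊥)
    (e : Fin 3 ≃ I) (hB : TypeB M e)
    (hdet : ∑ i, finrank ℂ (fx ρ (PJ cs h T X {i})) = finrank ℂ (fx ρ (RGD.B cs h T X)))
    (hA2 : ∀ i j, (nd cs {e 0, e 1} ((![∅, {e 0}, {e 0, e 1}] : Fin 3 → Set I) i)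
      ((![∅, {e 0}, {e 0, e 1}] : Fin 3 → Set I) j) : ℤ) = gA2 i j)
    (hA11 : ∀ i j : Fin 2 × Fin 2, (nd cs ({e 0} ∪ {e 2})
      (((![∅, {e 0}] : Fin 2 → Set I) i.1) ∪ (![∅, {e 2}] : Fin 2 → Set I) i.2)
      (((![∅, {e 0}] : Fin 2 → Set I) j.1) ∪ (![∅, {e 2}] : Fin 2 → Set I) j.2) : ℤ) = gA1 i.1 j.1 * gA1 i.2 j.2) :
    (finrank ℂ (fx ρ (RGD.B cs h T X)) = 1 ∧ finrank ℂ (fx ρ (PJ cs h T X {e 0})) = 0 ∧
      finrank ℂ (fx ρ (PJ cs h T X {e 1})) = 0 ∧ finrank ℂ (fx ρ (PJ cs h T X {e 2})) = 1) ∨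
    (∀ t, Ell cs h T X {e 0, e 2} t → ρ.character t = 0) ∨ (∀ t, Ell cs h T X {e 0, e 1} t → ρ.character t = 0) := by
  obtain ⟨hp, h1⟩ := mid_rgd R hG hρ h0 (by norm_num) e hB hdet
  have h01 : e 0 ≠ e 1 := e.injective.ne (by decide)
  have h02 : e 0 ≠ e 2 := e.injective.ne (by decide)
  rcases h1 with ⟨h1, h2, h3⟩ | ⟨h1, h2, h3⟩ | ⟨h1, h2⟩
  · exact Or.inl ⟨h1, h2 0 (by decide), h2 1 (by decide), h3 2 (by decide)⟩
  · refine Or.inr (Or.inl fun t ht => ?_)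
    have ht' : Ell cs h T X ({e 0} ∪ {e 2}) t := by rwa [Set.singleton_union]
    rw [char_of_cert R hG hρ h0 ht' (cert_A1.prod cert_A1)
      (fun x : Fin 2 × Fin 2 => ((![∅, {e 0}] : Fin 2 → Set I) x.1) ∪ (![∅, {e 2}] : Fin 2 → Set I) x.2) ?_ ?_ ?_ ?_ hA11]
    · change ∑ i : Fin 2 × Fin 2, _ * ((dP cs h T X ρ _ : ℕ) : ℂ) = 0
      have f0 : dP cs h T X ρ ∅ = 2 := by unfold dP; rw [PJ_empty R, h1]
      have f1 : dP cs h T X ρ {e 0} = 1 := h2 0 (by decide)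
      have f2 : dP cs h T X ρ {e 2} = 0 := h3 2 (by decide)
      have f3 : dP cs h T X ρ ({e 0} ∪ {e 2}) = 0 :=
        finrank_eq_zero_of_pair R hp h02 (K := {e 0} ∪ {e 2}) (by simp) (by simp)
      simp only [Fintype.sum_prod_type, Fin.sum_univ_two]
      simp only [Matrix.cons_val_zero, Matrix.cons_val_one, Set.empty_union, Set.union_empty, cA1, f0, f1, f2, f3]
      norm_num
    · rintro ⟨i, j⟩
      fin_cases i <;> fin_cases j <;> simp
    · rfl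
    · simp
    · rintro ⟨i, j⟩ hij hS
      have hne : e 0 ∈ ({e 0} ∪ {e 2} : Set I) := by simp
      have hne' : e 2 ∈ ({e 0} ∪ {e 2} : Set I) := by simp
      fin_cases i <;> fin_cases j
      · rw [← hS] at hne; simp at hne
      · rw [← hS] at hne; simp [h02] at hne
      · rw [← hS] at hne'; simp [h02.symm] at hne'
      · exact hij rfl
  · refine Or.inr (Or.inr fun t ht => ?_)
    rw [char_of_cert R hG hρ h0 ht cert_A2 (![∅, {e 0}, {e 0, e 1}] : Fin 3 → Set I) ?_ ?_ ?_ ?_ hA2]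
    · change ∑ i : Fin 3, _ * ((dP cs h T X ρ _ : ℕ) : ℂ) = 0
      have f0 : dP cs h T X ρ ∅ = 3 := by unfold dP; rw [PJ_empty R, h1]
      have f1 : dP cs h T X ρ {e 0} = 1 := h2 (e 0)
      have f2 : dP cs h T X ρ {e 0, e 1} = 0 := finrank_eq_zero_of_pair R hp h01 (K := {e 0, e 1}) (by simp) (by simp)
      have e2 : (![∅, {e 0}, {e 0, e 1}] : Fin 3 → Set I) 2 = {e 0, e 1} := rfl
      simp only [Fin.sum_univ_three]
      simp only [e2, Matrix.cons_val_zero, Matrix.cons_val_one, f0, f1, f2]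
      norm_num [cA2]
    · intro i
      fin_cases i <;> simp
    · rfl
    · rfl
    · intro i hi hS
      have hne : e 1 ∈ ({e 0, e 1} : Set I) := by simp
      fin_cases i
      · rw [← hS] at hne; simp at hne
      · rw [← hS] at hne; simp [h01.symm] at hne
      · exact hi rfl

/-- type `B_4`/`C_4` -/
theorem end_four (hG : GG cs h T X = ⊤) (hρ : ρ.IsIrreducible) (h0 : fx ρ (RGD.B cs h T X) ≠ ⊥)
    (e : Fin 4 ≃ I) (hB : TypeB M e)
    (hdet : ∑ i, finrank ℂ (fx ρ (PJ cs h T X {i})) = finrank ℂ (fx ρ (RGD.B cs h T X)))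
    (hA3 : ∀ i j, (nd cs {e 0, e 1, e 2}
      ((![∅, {e 0}, {e 0, e 2}, {e 0, e 1}, {e 0, e 1, e 2}] : Fin 5 → Set I) i)
      ((![∅, {e 0}, {e 0, e 2}, {e 0, e 1}, {e 0, e 1, e 2}] : Fin 5 → Set I) j) : ℤ) = gA3 i j)
    (hA21 : ∀ i j : Fin 3 × Fin 2, (nd cs ({e 0, e 1} ∪ {e 3})
      (((![∅, {e 0}, {e 0, e 1}] : Fin 3 → Set I) i.1) ∪ (![∅, {e 3}] : Fin 2 → Set I) i.2)
      (((![∅, {e 0}, {e 0, e 1}] : Fin 3 → Set I) j.1) ∪ (![∅, {e 3}] : Fin 2 → Set I) j.2) : ℤ) =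
        gA2 i.1 j.1 * gA1 i.2 j.2) :
    (finrank ℂ (fx ρ (RGD.B cs h T X)) = 1 ∧ finrank ℂ (fx ρ (PJ cs h T X {e 0})) = 0 ∧
      finrank ℂ (fx ρ (PJ cs h T X {e 1})) = 0 ∧ finrank ℂ (fx ρ (PJ cs h T X {e 2})) = 0 ∧
      finrank ℂ (fx ρ (PJ cs h T X {e 3})) = 1) ∨
    (∀ t, Ell cs h T X ({e 0, e 1} ∪ {e 3}) t → ρ.character t = 0) ∨
    (∀ t, Ell cs h T X {e 0, e 1, e 2} t → ρ.character t = 0) := by
  obtain ⟨hp, h1⟩ := mid_rgd R hG hρ h0 (by norm_num) e hB hdet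
  have h01 : e 0 ≠ e 1 := e.injective.ne (by decide)
  have h02 : e 0 ≠ e 2 := e.injective.ne (by decide)
  have h12 : e 1 ≠ e 2 := e.injective.ne (by decide)
  have h03 : e 0 ≠ e 3 := e.injective.ne (by decide)
  have h13 : e 1 ≠ e 3 := e.injective.ne (by decide)
  rcases h1 with ⟨h1, h2, h3⟩ | ⟨h1, h2, h3⟩ | ⟨h1, h2⟩
  · exact Or.inl ⟨h1, h2 0 (by decide), h2 1 (by decide), h2 2 (by decide), h3 3 (by decide)⟩
  · refine Or.inr (Or.inl fun t ht => ?_)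
    rw [char_of_cert R hG hρ h0 ht (cert_A2.prod cert_A1)
      (fun x : Fin 3 × Fin 2 => ((![∅, {e 0}, {e 0, e 1}] : Fin 3 → Set I) x.1) ∪ (![∅, {e 3}] : Fin 2 → Set I) x.2)
      ?_ ?_ ?_ ?_ hA21]
    · change ∑ i : Fin 3 × Fin 2, _ * ((dP cs h T X ρ _ : ℕ) : ℂ) = 0
      have f0 : dP cs h T X ρ ∅ = 3 := by unfold dP; rw [PJ_empty R, h1]
      have f1 : dP cs h T X ρ {e 0} = 1 := h2 0 (by decide)
      have f2 : dP cs h T X ρ {e 3} = 0 := h3 3 (by decide)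
      have f3 : dP cs h T X ρ ({e 0} ∪ {e 3}) = 0 := finrank_eq_zero_of_pair R hp h03 (by simp) (by simp)
      have f4 : dP cs h T X ρ {e 0, e 1} = 0 := finrank_eq_zero_of_pair R hp h01 (by simp) (by simp)
      have f5 : dP cs h T X ρ ({e 0, e 1} ∪ {e 3}) = 0 := finrank_eq_zero_of_pair R hp h01 (by simp) (by simp)
      have e2 : (![∅, {e 0}, {e 0, e 1}] : Fin 3 → Set I) 2 = {e 0, e 1} := rfl
      simp only [Fintype.sum_prod_type, Fin.sum_univ_three, Fin.sum_univ_two]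
      simp only [e2, Matrix.cons_val_zero, Matrix.cons_val_one, Set.empty_union, Set.union_empty, f0, f1, f2, f3, f4, f5]
      norm_num [cA1, cA2]
    · rintro ⟨i, j⟩
      fin_cases i <;> fin_cases j <;> simp [Set.subset_def]
    · rfl
    · simp
    · rintro ⟨i, j⟩ hij hS
      have hne : e 1 ∈ ({e 0, e 1} ∪ {e 3} : Set I) := by simp
      have hne' : e 3 ∈ ({e 0, e 1} ∪ {e 3} : Set I) := by simp
      fin_cases i <;> fin_cases j
      · rw [← hS] at hne; simp at hne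
      · rw [← hS] at hne; simp [h13] at hne
      · rw [← hS] at hne'; simp [h03.symm] at hne'
      · rw [← hS] at hne; simp [h13, h01.symm] at hne
      · rw [← hS] at hne'; simp [h03.symm, h13.symm] at hne'
      · exact hij rfl
  · refine Or.inr (Or.inr fun t ht => ?_)
    rw [char_of_cert R hG hρ h0 ht cert_A3
      (![∅, {e 0}, {e 0, e 2}, {e 0, e 1}, {e 0, e 1, e 2}] : Fin 5 → Set I) ?_ ?_ ?_ ?_ hA3]
    · change ∑ i : Fin 5, _ * ((dP cs h T X ρ _ : ℕ) : ℂ) = 0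
      have f0 : dP cs h T X ρ ∅ = 4 := by unfold dP; rw [PJ_empty R, h1]
      have f1 : dP cs h T X ρ {e 0} = 1 := h2 (e 0)
      have f2 : dP cs h T X ρ {e 0, e 2} = 0 := finrank_eq_zero_of_pair R hp h02 (by simp) (by simp)
      have f3 : dP cs h T X ρ {e 0, e 1} = 0 := finrank_eq_zero_of_pair R hp h01 (by simp) (by simp)
      have f4 : dP cs h T X ρ {e 0, e 1, e 2} = 0 := finrank_eq_zero_of_pair R hp h01 (by simp) (by simp)
      have e2 : (![∅, {e 0}, {e 0, e 2}, {e 0, e 1}, {e 0, e 1, e 2}] : Fin 5 → Set I) 2 = {e 0, e 2} := rfl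
      have e3 : (![∅, {e 0}, {e 0, e 2}, {e 0, e 1}, {e 0, e 1, e 2}] : Fin 5 → Set I) 3 = {e 0, e 1} := rfl
      have e4 : (![∅, {e 0}, {e 0, e 2}, {e 0, e 1}, {e 0, e 1, e 2}] : Fin 5 → Set I) 4 = {e 0, e 1, e 2} := rfl
      simp only [Fin.sum_univ_five]
      simp only [e2, e3, e4, Matrix.cons_val_zero, Matrix.cons_val_one, f0, f1, f2, f3, f4]
      norm_num [cA3]
    · intro i
      fin_cases i <;> simp [Set.subset_def]
    · rfl
    · rfl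
    · intro i hi hS
      have hne : e 1 ∈ ({e 0, e 1, e 2} : Set I) := by simp
      have hne' : e 2 ∈ ({e 0, e 1, e 2} : Set I) := by simp
      fin_cases i
      · rw [← hS] at hne; simp at hne
      · rw [← hS] at hne; simp [h01.symm] at hne
      · rw [← hS] at hne; simp [h01.symm, h12] at hne
      · rw [← hS] at hne'; simp [h02.symm, h12.symm] at hne'
      · exact hi rfl

end

end Cfsg.Agent.H639.OZ
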