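import Cfsg.Agent.H639.OZ.Dbl
import Cfsg.Agent.H898.VZ.Cert
import Cfsg.Agent.H200.VZ.One

/-!
# S4842, toolkit section 6: the value of a character with `V^B ≠ 0` at an elliptic element

* `char_of_cert` : `χ(t) = ∑ c_K dim V^{P_K}`, `t` elliptic in `L_J`, from a certificate and the numbers of double cosets in `W_J`.
-/

set_option autoImplicit false
set_option linter.unusedSectionVars false

open Cfsg

namespace Cfsg.Agent.H639.OZ

open CoxeterSystem Cfsg.Agent.ChevalleyStructure.CoxeterGeom Cfsg.Agent.Tits.Roots Cfsg.Agent.Tits.Core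
  Cfsg.Agent.Tits.Exchange Cfsg.Agent.Nodes.Reps Cfsg.Agent.Nodes.BNOf Cfsg.Agent.Nodes.StabComb
  Cfsg.Agent.Nodes.Bruhat Cfsg.Agent.Nodes.OppDec Cfsg.Agent.Nodes.LeviDec Cfsg.Agent.H985.VZ Module
  Cfsg.Agent.H898.VZ

universe u v

variable {I W : Type*} {Y : Type u} [Fintype I] [DecidableEq I] [Group W] [Group Y] {M : CoxeterMatrix I}
  {cs : CoxeterSystem M W} {A : I → I → ℤ} {h : IsCartan M A} {p : ℕ} {T : Subgroup Y} {n : I → Y}
  {X : (I → ℤ) → Subgroup Y} {V : Type v} [AddCommGroup V] [Module ℂ V] {ρ : Representation ℂ Y V}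

/-- the number of double cosets `W_K \ W_J / W_K'` -/
noncomputable def nd (cs : CoxeterSystem M W) (J K K' : Set I) : ℕ :=
  Nat.card (DoubleCoset.Quotient (((WJ cs K).subgroupOf (WJ cs J) : Subgroup (WJ cs J)) : Set (WJ cs J))
    (((WJ cs K').subgroupOf (WJ cs J) : Subgroup (WJ cs J)) : Set (WJ cs J)))

theorem char_of_cert (R : RGD cs h p T n X) [Finite W] [Finite Y] [FiniteDimensional ℂ V] (hG : GG cs h T X = ⊤)
    (hρ : ρ.IsIrreducible) (h0 : fx ρ (RGD.B cs h T X) ≠ ⊥) {J : Set I} {t : Y} (ht : Ell cs h T X J t)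
    {ι κ : Type*} [Fintype ι] [DecidableEq ι] [Fintype κ] [DecidableEq κ] {g : ι → ι → ℤ} {o z : ι} {m : κ → ι → ℤ}
    {c : ι → ℚ} (hc : Cert g o z m c) (S : ι → Set I) (hSJ : ∀ i, S i ⊆ J) (hSz : S z = J) (hSo : S o = ∅)
    (hne : ∀ i, i ≠ z → S i ≠ J) (hg : ∀ i j, (nd cs J (S i) (S j) : ℤ) = g i j) :
    ρ.character t = ∑ i, (c i : ℂ) * finrank ℂ (fx ρ (PJ cs h T X (S i))) := by
  have hVU : VU cs h X ρ = fx ρ (RGD.B cs h T X) := Cfsg.Agent.H200.VZ.VU_eq R hG hρ h0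
  rw [char_eq_sig R ht.toFree, hc.gram (sig R ρ J) (fun i => (PJ cs h T X (S i)).subgroupOf (PJ cs h T X J)) ?_ ?_ ?_ ?_]
  · exact Finset.sum_congr rfl fun i _ => by rw [finrank_fx_sig R ρ (hSJ i)]
  · simp only [hSz]
    exact Subgroup.subgroupOf_self _
  · intro N hN
    refine sig_span R hG hρ (by rw [hVU]; exact h0) hVU.le J N ?_
    simp only [hSo] at hN
    exact hN
  · intro i j
    rw [card_dbl R hG (hSJ i) (hSJ j)]
    exact hg i j
  · intro i hi x hx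
    have h1 := ht.not_mem R ((hSJ i).ssubset_of_ne (hne i hi)) (inv_mem x.2)
    rw [inv_inv] at h1
    exact h1 hx

end Cfsg.Agent.H639.OZ
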