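import Cfsg.Agent.H639.OZ.EndB
import Cfsg.Agent.H695.OneZero.DetMain

/-!
# S4842: `PSp_6`, `Ω_7`, `PSp_8`, `Ω_9`: no character with `x = 2 n` and `V^B ≠ 0` (helper639)

* `word_cert` : a reduced word from the numbers game;
* `word_three`, `word_four` : `w0 = (s_0 s_1 ⋯ s_{n-1})^n` in type `B_n`, `n = 3, 4`;
* `hdet_three`, `hdet_four` : `∑ dim V^{P_i} = dim V^B` from the determinant formula;
* `no_mid_three`, `no_mid_four` : contradiction.
-/

set_option autoImplicit false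
set_option linter.unusedSectionVars false

open Cfsg

namespace Cfsg.Agent.H639.OZ

open CoxeterSystem Cfsg.Agent.ChevalleyStructure.CoxeterGeom Cfsg.Agent.Tits.Roots Cfsg.Agent.Tits.Core
  Cfsg.Agent.Tits.Exchange Cfsg.Agent.Nodes.Reps Cfsg.Agent.Nodes.BNOf Cfsg.Agent.Nodes.StabComb
  Cfsg.Agent.Nodes.Bruhat Cfsg.Agent.Nodes.OppDec Cfsg.Agent.Nodes.LeviDec Cfsg.Agent.H985.VZ Module
  Cfsg.Agent.H200.VZ Cfsg.Agent.H898.VZ Cfsg.Agent.H644.OZ Cfsg.Agent.H694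

universe u v

section words

variable {I W : Type*} [Fintype I] [DecidableEq I] [Group W] [Finite W] {M : CoxeterMatrix I}
  (cs : CoxeterSystem M W) {A : I → I → ℤ} (h : IsCartan M A)

include h in
/-- an element with all right descents is the longest element -/
theorem eq_w0_of_descents {w : W} (hw : ∀ i, ¬ cs.length w < cs.length (w * cs.simple i)) : w = w0 cs := by
  by_contra hne
  have h1 : w0 cs * w ≠ 1 := by
    intro h2
    apply hne
    have h3 := eq_inv_of_mul_eq_one_right h2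
    rw [h3, w0_inv]
  obtain ⟨i, hi⟩ := cs.exists_rightDescent_of_ne_one h1
  have hi' : cs.length (w0 cs * w * cs.simple i) < cs.length (w0 cs * w) := hi
  have h2 := length_w0_mul (cs := cs) (w * cs.simple i)
  have h3 := length_w0_mul (cs := cs) w
  rw [← mul_assoc] at h2
  exact hw i (by omega)

/-- a reduced word from the numbers game -/
theorem word_cert {N : ℕ} (w : ℕ → I) (st : ℕ → I → ℤ) (h0 : ∀ j, st 0 j = 1) (hpos : ∀ t < N, 0 < st t (w t))
    (hst : ∀ t < N, ∀ j, st (t + 1) j = st t j - A (w t) j * st t (w t)) :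
    cs.length (cs.wordProd ((List.range N).map w)) = N ∧
      mv cs h (cs.wordProd ((List.range N).map w)) (fun _ => 1) = st N := by
  induction N with
  | zero =>
    rw [List.range_zero, List.map_nil, wordProd_nil, cs.length_one, Cfsg.Agent.H694.mv_one]
    exact ⟨rfl, funext fun j => (h0 j).symm⟩
  | succ N ih =>
    obtain ⟨h1, h2⟩ := ih (fun t ht => hpos t (by omega)) (fun t ht => hst t (by omega))
    have h3 : cs.wordProd ((List.range (N + 1)).map w) = cs.wordProd ((List.range N).map w) * cs.simple (w N) := by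
      rw [List.range_succ, List.map_append, wordProd_append, List.map_singleton, wordProd_singleton]
    rw [h3]
    constructor
    · have h4 : cs.length (cs.wordProd ((List.range N).map w)) <
          cs.length (cs.wordProd ((List.range N).map w) * cs.simple (w N)) := by
        rw [lt_iff_mv cs h, h2]
        exact (hpos N (by omega)).le
      rcases cs.length_mul_simple (cs.wordProd ((List.range N).map w)) (w N) with h5 | h5
      · omega
      · omega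
    · rw [mv_mul, h2, mv_simple]
      exact funext fun j => (hst N (by omega) j).symm

include h in
theorem word_w0 {N : ℕ} (w : ℕ → I) (st : ℕ → I → ℤ) (h0 : ∀ j, st 0 j = 1) (hpos : ∀ t < N, 0 < st t (w t))
    (hst : ∀ t < N, ∀ j, st (t + 1) j = st t j - A (w t) j * st t (w t)) (hN : ∀ j, st N j < 0) :
    cs.IsReduced ((List.range N).map w) ∧ cs.wordProd ((List.range N).map w) = w0 cs := by
  obtain ⟨h1, h2⟩ := word_cert cs h w st h0 hpos hst
  refine ⟨?_, eq_w0_of_descents cs h fun i hi => ?_⟩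
  · unfold CoxeterSystem.IsReduced
    rw [h1, List.length_map, List.length_range]
  · rw [lt_iff_mv cs h, h2] at hi
    exact absurd hi (not_le.2 (hN i))

end words

/-- a Cartan matrix of type `C_3` -/
def cart3 : Fin 3 → Fin 3 → ℤ := ![![2, -1, 0], ![-1, 2, -1], ![0, -2, 2]]

theorem isCartan3 : IsCartan (CoxeterMatrix.B 3) cart3 := ⟨by decide, by intro i j hij; fin_cases i <;> fin_cases j <;> first | exact absurd rfl hij | decide⟩

/-- a Cartan matrix of type `C_4` -/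
def cart4 : Fin 4 → Fin 4 → ℤ := ![![2, -1, 0, 0], ![-1, 2, -1, 0], ![0, -1, 2, -1], ![0, 0, -2, 2]]

theorem isCartan4 : IsCartan (CoxeterMatrix.B 4) cart4 := ⟨by decide, by intro i j hij; fin_cases i <;> fin_cases j <;> first | exact absurd rfl hij | decide⟩

def let3 (t : ℕ) : Fin 3 := ⟨t % 3, Nat.mod_lt _ (by norm_num)⟩

def let4 (t : ℕ) : Fin 4 := ⟨t % 4, Nat.mod_lt _ (by norm_num)⟩

def st3 (t : ℕ) : Fin 3 → ℤ :=
  (![![1, 1, 1], ![-1, 2, 1], ![1, -2, 3], ![1, 4, -3], ![-1, 5, -3], ![4, -5, 2], ![4, -1, -2], ![-4, 3, -2],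
    ![-1, -3, 1], ![-1, -1, -1]] : Fin 10 → Fin 3 → ℤ) (Fin.ofNat 10 t)

def st4 (t : ℕ) : Fin 4 → ℤ :=
  (![![1, 1, 1, 1], ![-1, 2, 1, 1], ![1, -2, 3, 1], ![1, 1, -3, 4], ![1, 1, 5, -4], ![-1, 2, 5, -4], ![1, -2, 7, -4],
    ![1, 5, -7, 3], ![1, 5, -1, -3], ![-1, 6, -1, -3], ![5, -6, 5, -3], ![5, -1, -5, 2], ![5, -1, -1, -2],
    ![-5, 4, -1, -2], ![-1, -4, 3, -2], ![-1, -1, -3, 1], ![-1, -1, -1, -1]] : Fin 17 → Fin 4 → ℤ) (Fin.ofNat 17 t)

section

variable {W : Type*} [Group W] [Finite W]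

theorem word_three (cs : CoxeterSystem (CoxeterMatrix.B 3) W) :
    cs.IsReduced ((List.range 9).map let3) ∧ cs.wordProd ((List.range 9).map let3) = w0 cs :=
  word_w0 cs isCartan3 let3 st3 (by decide) (by decide) (by decide) (by decide)

theorem word_four (cs : CoxeterSystem (CoxeterMatrix.B 4) W) :
    cs.IsReduced ((List.range 16).map let4) ∧ cs.wordProd ((List.range 16).map let4) = w0 cs :=
  word_w0 cs isCartan4 let4 st4 (by decide) (by decide) (by decide) (by decide)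

theorem count_three : ∀ i, ((List.range 9).map let3).count i = 3 := by decide

theorem count_four : ∀ i, ((List.range 16).map let4).count i = 4 := by decide

end

section

variable {W : Type*} {Y : Type u} [Group W] [Group Y] [Finite W] [Finite Y] {p : ℕ} {T : Subgroup Y}
  {V : Type v} [AddCommGroup V] [Module ℂ V] {ρ : Representation ℂ Y V} [FiniteDimensional ℂ V]

theorem hdet_aux {N a d S m : ℕ} (hN : 0 < N) (ha : 0 < a) (hm : m = 2 * N * a) (h1 : m * d = 2 * (N * (a * S))) :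
    S = d := by
  have h2 : 0 < 2 * N * a := by positivity
  refine Nat.eq_of_mul_eq_mul_left h2 ?_
  rw [← hm, h1, hm]
  ring

/-- `M = CoxeterMatrix.B 3` -/
theorem hdet_three {cs : CoxeterSystem (CoxeterMatrix.B 3) W} {A : Fin 3 → Fin 3 → ℤ}
    {h : IsCartan (CoxeterMatrix.B 3) A} {n : Fin 3 → Y} {X : (Fin 3 → ℤ) → Subgroup Y} (R : RGD cs h p T n X)
    (hp : p.Prime) (hG : GG cs h T X = ⊤) (hρ : ρ.IsIrreducible) (h0 : fx ρ (RGD.B cs h T X) ≠ ⊥)
    {m : ℕ} {e : ℤ} (he : e = 1 ∨ e = -1)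
    (hS : ∑ᶠ g ∈ Cfsg.Agent.H730.OZ.pSet p Y, ρ.character g = (e : ℂ) * (p : ℂ) ^ m * ρ.character 1)
    {a : ℕ} (ha : 0 < a) (hq : ∀ i, qq X i = p ^ a) (hm : m = 2 * 3 * a) :
    ∑ i, finrank ℂ (fx ρ (PJ cs h T X {i})) = finrank ℂ (fx ρ (RGD.B cs h T X)) := by
  have h1 := (Cfsg.Agent.H695.OneZero.Det.det_formula_count R hp hG hρ h0 he hS (a := fun _ => a) hq).2 _
    (word_three cs).1 (word_three cs).2
  simp only [count_three, ← Finset.mul_sum] at h1
  exact hdet_aux (by norm_num) ha hm h1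

/-- `M = CoxeterMatrix.B 4` -/
theorem hdet_four {cs : CoxeterSystem (CoxeterMatrix.B 4) W} {A : Fin 4 → Fin 4 → ℤ}
    {h : IsCartan (CoxeterMatrix.B 4) A} {n : Fin 4 → Y} {X : (Fin 4 → ℤ) → Subgroup Y} (R : RGD cs h p T n X)
    (hp : p.Prime) (hG : GG cs h T X = ⊤) (hρ : ρ.IsIrreducible) (h0 : fx ρ (RGD.B cs h T X) ≠ ⊥)
    {m : ℕ} {e : ℤ} (he : e = 1 ∨ e = -1)
    (hS : ∑ᶠ g ∈ Cfsg.Agent.H730.OZ.pSet p Y, ρ.character g = (e : ℂ) * (p : ℂ) ^ m * ρ.character 1)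
    {a : ℕ} (ha : 0 < a) (hq : ∀ i, qq X i = p ^ a) (hm : m = 2 * 4 * a) :
    ∑ i, finrank ℂ (fx ρ (PJ cs h T X {i})) = finrank ℂ (fx ρ (RGD.B cs h T X)) := by
  have h1 := (Cfsg.Agent.H695.OneZero.Det.det_formula_count R hp hG hρ h0 he hS (a := fun _ => a) hq).2 _
    (word_four cs).1 (word_four cs).2
  simp only [count_four, ← Finset.mul_sum] at h1
  exact hdet_aux (by norm_num) ha hm h1

/-- **`PSp_6`, `Ω_7`: no character with `x = 6`, `V^B ≠ 0`** -/
theorem no_mid_three {cs : CoxeterSystem (CoxeterMatrix.B 3) W} {A : Fin 3 → Fin 3 → ℤ}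
    {h : IsCartan (CoxeterMatrix.B 3) A} {n : Fin 3 → Y} {X : (Fin 3 → ℤ) → Subgroup Y} (R : RGD cs h p T n X)
    (hp : p.Prime) (hG : GG cs h T X = ⊤) (hρ : ρ.IsIrreducible) (h0 : fx ρ (RGD.B cs h T X) ≠ ⊥)
    {m : ℕ} {e : ℤ} (he : e = 1 ∨ e = -1)
    (hS : ∑ᶠ g ∈ Cfsg.Agent.H730.OZ.pSet p Y, ρ.character g = (e : ℂ) * (p : ℂ) ^ m * ρ.character 1)
    {a : ℕ} (ha : 0 < a) (hq : ∀ i, qq X i = p ^ a) (hm : m = 2 * 3 * a)
    {t t' : Y} (ht : Ell cs h T X {2}ᶜ t) (hχ : ρ.character t ≠ 0)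
    (ht' : Ell cs h T X {1}ᶜ t') (hχ' : ρ.character t' ≠ 0)
    {r : ℕ} (hr : r.Prime) (hr1 : r ∣ (p ^ a) ^ 3 + 1) (hr2 : ¬ r ∣ 2 * (1 + p ^ a)) : r ∣ finrank ℂ V := by
  refine dvd_of_mul hr (deg_three_B R hG hρ h0 hq (hdet_three R hp hG hρ h0 he hS ha hq hm) ht hχ ht' hχ') hr2 ?_
  rw [add_comm] at hr1
  exact Dvd.dvd.mul_left hr1 _

/-- **`PSp_8`, `Ω_9`: no character with `x = 8`, `V^B ≠ 0`** -/
theorem no_mid_four {cs : CoxeterSystem (CoxeterMatrix.B 4) W} {A : Fin 4 → Fin 4 → ℤ}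
    {h : IsCartan (CoxeterMatrix.B 4) A} {n : Fin 4 → Y} {X : (Fin 4 → ℤ) → Subgroup Y} (R : RGD cs h p T n X)
    (hp : p.Prime) (hG : GG cs h T X = ⊤) (hρ : ρ.IsIrreducible) (h0 : fx ρ (RGD.B cs h T X) ≠ ⊥)
    {m : ℕ} {e : ℤ} (he : e = 1 ∨ e = -1)
    (hS : ∑ᶠ g ∈ Cfsg.Agent.H730.OZ.pSet p Y, ρ.character g = (e : ℂ) * (p : ℂ) ^ m * ρ.character 1)
    {a : ℕ} (ha : 0 < a) (hq : ∀ i, qq X i = p ^ a) (hm : m = 2 * 4 * a)
    {t t' : Y} (ht : Ell cs h T X {3}ᶜ t) (hχ : ρ.character t ≠ 0)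
    (ht' : Ell cs h T X {2}ᶜ t') (hχ' : ρ.character t' ≠ 0)
    {r : ℕ} (hr : r.Prime) (hr1 : r ∣ (p ^ a) ^ 4 + 1) (hr2 : ¬ r ∣ 2 * (1 + p ^ a)) : r ∣ finrank ℂ V := by
  refine dvd_of_mul hr (deg_four_B R hG hρ h0 hq (hdet_four R hp hG hρ h0 he hS ha hq hm) ht hχ ht' hχ') hr2 ?_
  rw [add_comm] at hr1
  exact Dvd.dvd.mul_left hr1 _

end

end Cfsg.Agent.H639.OZ
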