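import Cfsg.Agent.H200.VZ.VBne
import Cfsg.Agent.H639.OZ.EndC

/-!
# S4842: `PSp_6`, `Ω_7`, `PSp_8`, `Ω_9`, the contradiction for `x = 2 n` (helper639)
-/

set_option autoImplicit false
set_option linter.unusedSectionVars false

open Cfsg

namespace Cfsg.Agent.H639.OZ

open CoxeterSystem Cfsg.Agent.ChevalleyStructure.CoxeterGeom Cfsg.Agent.Tits.Roots Cfsg.Agent.Tits.Core
  Cfsg.Agent.Tits.Exchange Cfsg.Agent.Nodes.Reps Cfsg.Agent.Nodes.BNOf Cfsg.Agent.Nodes.StabComb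
  Cfsg.Agent.Nodes.Bruhat Cfsg.Agent.Nodes.OppDec Cfsg.Agent.Nodes.LeviDec Cfsg.Agent.H985.VZ Module
  Cfsg.Agent.H200.VZ Cfsg.Agent.Nodes.TypeC Cfsg.Agent.H730.OZ Cfsg.Agent.Nodes

universe u

variable {W : Type*} {Y : Type u} [Group W] [Group Y] [Finite Y] {p : ℕ} {T : Subgroup Y}
  {X0 : Type*} [Group X0]

theorem charDegree_eq {N : ℕ} (ρ : Representation ℂ Y (Fin N → ℂ)) :
    charDegree ρ.character = finrank ℂ (Fin N → ℂ) := by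
  unfold charDegree
  have h1 : ρ.character 1 = (finrank ℂ (Fin N → ℂ) : ℂ) := by
    change LinearMap.trace ℂ _ (ρ 1) = _
    rw [map_one, LinearMap.trace_one]
  rw [h1, Complex.natCast_re, Nat.floor_natCast]

theorem exists_ne_zero_of {χ : Y → ℂ} (hz : OneZero χ) {P : Y → Prop} (hP : ∃ t t' : Y, P t ∧ P t' ∧ ¬ IsConj t t') :
    ∃ t, P t ∧ χ t ≠ 0 := by
  obtain ⟨t, t', h1, h2, hc⟩ := hP
  obtain ⟨x, -, hx⟩ := hz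
  by_cases h3 : χ t = 0
  · exact ⟨t', h2, fun h4 => hc ((hx t h3).symm.trans (hx t' h4))⟩
  · exact ⟨t, h1, h3⟩

/-- rank three -/
theorem false_three (o : Bool) {cs : CoxeterSystem (CoxeterMatrix.B 3) W} {n : Fin 3 → Y}
    {X : (Fin 3 → ℤ) → Subgroup Y} {hh : Fin 3 → X0 →* Y} (R : RGD cs (isCartan 3) p T n X)
    (hp : p.Prime) (hG : GG cs (isCartan 3) T X = ⊤) (hT : ∀ s ∈ T, ∀ t ∈ T, s * t = t * s) (td : TD T n (Ap o 3) hh)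
    {a : ℕ} (ha : 0 < a) (hq : ∀ i, qq X i = p ^ a)
    (h1 : ∃ t t', (Ell cs (isCartan 3) T X {2}ᶜ t ∧ HD cs (isCartan 3) T n X hh {2}ᶜ t) ∧
      (Ell cs (isCartan 3) T X {2}ᶜ t' ∧ HD cs (isCartan 3) T n X hh {2}ᶜ t') ∧ ¬ IsConj t t')
    (h2 : ∃ t t', (Ell cs (isCartan 3) T X {1}ᶜ t ∧ HD cs (isCartan 3) T n X hh {1}ᶜ t) ∧
      (Ell cs (isCartan 3) T X {1}ᶜ t' ∧ HD cs (isCartan 3) T n X hh {1}ᶜ t') ∧ ¬ IsConj t t')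
    {χ : Y → ℂ} (hχ : IsIrrCharacter Y χ) (hz : OneZero χ)
    (hS : ∑ᶠ u ∈ pSet p Y, χ u = (p : ℂ) ^ (a * 6) * χ 1)
    (hr : ∃ r : ℕ, r.Prime ∧ r ∣ (p ^ a) ^ 3 + 1 ∧ ¬ r ∣ 2 * (1 + p ^ a) ∧ ¬ r ∣ charDegree χ) : False := by
  have : Finite W := finite_W cs
  obtain ⟨t, ⟨ht, hd⟩, hχt⟩ := exists_ne_zero_of hz h1
  obtain ⟨t', ⟨ht', hd'⟩, hχt'⟩ := exists_ne_zero_of hz h2
  obtain ⟨N, ρ, hρ, rfl⟩ := hχ
  obtain ⟨r, hr0, hr1, hr2, hr3⟩ := hr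
  have h0 := VB_ne_three o R hG hT hρ ht hχt hd ht' hχt' hd' td
  have h3 := no_mid_three R hp hG hρ h0 (m := a * 6) (e := 1) (Or.inl rfl)
    (by rw [hS, Int.cast_one, one_mul]) ha hq (by ring) ht hχt ht' hχt' hr0 hr1 hr2
  rw [charDegree_eq] at hr3
  exact hr3 h3

/-- rank four -/
theorem false_four (o : Bool) {cs : CoxeterSystem (CoxeterMatrix.B 4) W} {n : Fin 4 → Y}
    {X : (Fin 4 → ℤ) → Subgroup Y} {hh : Fin 4 → X0 →* Y} (R : RGD cs (isCartan 4) p T n X)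
    (hp : p.Prime) (hG : GG cs (isCartan 4) T X = ⊤) (hT : ∀ s ∈ T, ∀ t ∈ T, s * t = t * s) (td : TD T n (Ap o 4) hh)
    {a : ℕ} (ha : 0 < a) (hq : ∀ i, qq X i = p ^ a)
    (h1 : ∃ t t', (Ell cs (isCartan 4) T X {3}ᶜ t ∧ HD cs (isCartan 4) T n X hh {3}ᶜ t) ∧
      (Ell cs (isCartan 4) T X {3}ᶜ t' ∧ HD cs (isCartan 4) T n X hh {3}ᶜ t') ∧ ¬ IsConj t t')
    (h2 : ∃ t t', (Ell cs (isCartan 4) T X {2}ᶜ t ∧ HD cs (isCartan 4) T n X hh {2}ᶜ t) ∧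
      (Ell cs (isCartan 4) T X {2}ᶜ t' ∧ HD cs (isCartan 4) T n X hh {2}ᶜ t') ∧ ¬ IsConj t t')
    {χ : Y → ℂ} (hχ : IsIrrCharacter Y χ) (hz : OneZero χ)
    (hS : ∑ᶠ u ∈ pSet p Y, χ u = (p : ℂ) ^ (a * 8) * χ 1)
    (hr : ∃ r : ℕ, r.Prime ∧ r ∣ (p ^ a) ^ 4 + 1 ∧ ¬ r ∣ 2 * (1 + p ^ a) ∧ ¬ r ∣ charDegree χ) : False := by
  have : Finite W := finite_W cs
  obtain ⟨t, ⟨ht, hd⟩, hχt⟩ := exists_ne_zero_of hz h1
  obtain ⟨t', ⟨ht', hd'⟩, hχt'⟩ := exists_ne_zero_of hz h2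
  obtain ⟨N, ρ, hρ, rfl⟩ := hχ
  obtain ⟨r, hr0, hr1, hr2, hr3⟩ := hr
  have h0 := VB_ne_four o R hG hT hρ ht hχt hd ht' hχt' hd' td
  have h3 := no_mid_four R hp hG hρ h0 (m := a * 8) (e := 1) (Or.inl rfl)
    (by rw [hS, Int.cast_one, one_mul]) ha hq (by ring) ht hχt ht' hχt' hr0 hr1 hr2
  rw [charDegree_eq] at hr3
  exact hr3 h3

end Cfsg.Agent.H639.OZ
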