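import Cfsg.Agent.H639.OZ.EndC
import Cfsg.Agent.Nodes.TypeD

/-!
# S4842: `PΩ⁺_8`, the Hecke end for `x = 12` (helper639)

`M = TypeD.M 2` (centre `1`), `V^B ≠ 0`, `d = dim V^B`, `k_i = dim V^{P_i}`.

* `finrank_eq_of_three` : `k_i = k_j` if `M i j = 3`;
* `word_dfour` : `w0 = (s_0 s_2 s_3 s_1)^3`;
* `d4_dim`  : `d = 2 k_i` if `∑ χ = ± p^(12 a) χ(1)`;
* `d4_zero` : `χ = 0` on `Ell {i}`;
* `d4_even` : `χ ∈ 2 ℤ` on `Ell {x, 1, y}` (type `A_3`).
-/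

set_option autoImplicit false
set_option linter.unusedSectionVars false

open Cfsg

namespace Cfsg.Agent.H639.OZ

open CoxeterSystem Cfsg.Agent.ChevalleyStructure.CoxeterGeom Cfsg.Agent.Tits.Roots Cfsg.Agent.Tits.Core
  Cfsg.Agent.Tits.Exchange Cfsg.Agent.Nodes.Reps Cfsg.Agent.Nodes.BNOf Cfsg.Agent.Nodes.StabComb
  Cfsg.Agent.Nodes.Bruhat Cfsg.Agent.Nodes.OppDec Cfsg.Agent.Nodes.LeviDec Cfsg.Agent.H985.VZ Module
  Cfsg.Agent.H200.VZ Cfsg.Agent.H898.VZ Cfsg.Agent.H644.OZ Cfsg.Agent.H694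

universe u v

section lin

variable {E : Type*} [AddCommGroup E] [Module ℂ E]

/-- `T` is injective -/
theorem Quad.inj {T : Module.End ℂ E} {q : ℕ} (h : Quad T q) (hq : 0 < q) : Function.Injective T := by
  rw [← LinearMap.ker_eq_bot, eq_bot_iff]
  intro v hv
  have h1 := h.sq v
  rw [LinearMap.mem_ker.1 hv, map_zero, smul_zero, zero_add] at h1
  exact (smul_eq_zero.1 h1.symm).resolve_left (by exact_mod_cast hq.ne')

/-- `(S T) (ker (S - q)) ⊆ ker (T - q)` -/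
theorem finrank_le_of_braid [FiniteDimensional ℂ E] {S T : Module.End ℂ E} {q : ℕ} (hq : 0 < q) (hS : Quad S q)
    (hT : Quad T q) (hb : S * T * S = T * S * T) : finrank ℂ (Fq S q) ≤ finrank ℂ (Fq T q) := by
  have hb' : ∀ w, S (T (S w)) = T (S (T w)) := fun w => congrArg (fun f : Module.End ℂ E => f w) hb
  have h1 : ∀ v ∈ Fq S q, (S * T) v ∈ Fq T q := by
    intro v hv
    rw [mem_Fq, Module.End.mul_apply, ← hb', mem_Fq.1 hv, map_smul, map_smul]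
  refine LinearMap.finrank_le_finrank_of_injective (f := (S * T).restrict h1) ?_
  intro v w hvw
  have h2 := congrArg Subtype.val hvw
  exact Subtype.ext (hT.inj hq (hS.inj hq h2))

end lin

section

variable {I W : Type*} {Y : Type u} [Fintype I] [DecidableEq I] [Group W] [Group Y] {M : CoxeterMatrix I}
  {cs : CoxeterSystem M W} {A : I → I → ℤ} {h : IsCartan M A} {p : ℕ} {T : Subgroup Y} {n : I → Y}
  {X : (I → ℤ) → Subgroup Y} {V : Type v} [AddCommGroup V] [Module ℂ V] {ρ : Representation ℂ Y V}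
  (R : RGD cs h p T n X) [Finite W] [Finite Y] [FiniteDimensional ℂ V]

include R

theorem finrank_le_of_three {i j : I} (hm : M i j = 3) :
    finrank ℂ (fx ρ (PJ cs h T X {i})) ≤ finrank ℂ (fx ρ (PJ cs h T X {j})) := by
  rw [← finrank_Fq R i, ← finrank_Fq R j, ← qq_eq R hm]
  exact finrank_le_of_braid Nat.card_pos (quad R i) (by rw [qq_eq R hm]; exact quad R j) (braid_three R hm)

theorem finrank_eq_of_three {i j : I} (hm : M i j = 3) :
    finrank ℂ (fx ρ (PJ cs h T X {i})) = finrank ℂ (fx ρ (PJ cs h T X {j})) :=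
  le_antisymm (finrank_le_of_three R hm) (finrank_le_of_three R (by rw [M.symmetric]; exact hm))

/-- `χ` on `Ell {i}` -/
theorem char_A1 (hG : GG cs h T X = ⊤) (hρ : ρ.IsIrreducible) (h0 : fx ρ (RGD.B cs h T X) ≠ ⊥) {i : I} {t : Y}
    (ht : Ell cs h T X {i} t) : ρ.character t =
      2 * finrank ℂ (fx ρ (PJ cs h T X {i})) - finrank ℂ (fx ρ (RGD.B cs h T X)) := by
  rw [char_of_cert R hG hρ h0 ht cert_A1 (![∅, {i}] : Fin 2 → Set I) ?_ ?_ ?_ ?_ (nd_A1 cs h i)]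
  · change ∑ k : Fin 2, _ * ((dP cs h T X ρ _ : ℕ) : ℂ) = 2 * ((dP cs h T X ρ {i} : ℕ) : ℂ) - _
    have f0 : dP cs h T X ρ ∅ = finrank ℂ (fx ρ (RGD.B cs h T X)) := by unfold dP; rw [PJ_empty R]
    rw [Fin.sum_univ_two]
    simp only [Matrix.cons_val_zero, Matrix.cons_val_one, cA1, f0]
    push_cast
    ring
  · intro k
    fin_cases k <;> simp
  · rfl
  · rfl
  · intro k hk hS
    have hne : i ∈ ({i} : Set I) := rfl
    fin_cases k
    · rw [← hS] at hne; simp at hne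
    · exact hk rfl

/-- `χ` on `Ell A_3` -/
theorem char_A3 (hG : GG cs h T X = ⊤) (hρ : ρ.IsIrreducible) (h0 : fx ρ (RGD.B cs h T X) ≠ ⊥) {x y z : I}
    (hxy : M x y = 3) (hyz : M y z = 3) (hxz : M x z = 2) {t : Y}
    (ht : Ell cs h T X {x, y, z} t) : ρ.character t =
      4 * finrank ℂ (fx ρ (PJ cs h T X {x, y, z})) - 4 * finrank ℂ (fx ρ (PJ cs h T X {x, y})) -
        2 * finrank ℂ (fx ρ (PJ cs h T X {x, z})) + 4 * finrank ℂ (fx ρ (PJ cs h T X {x})) -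
        finrank ℂ (fx ρ (RGD.B cs h T X)) := by
  have h1 : x ≠ y := fun e => by rw [e, M.diagonal] at hxy; omega
  have h2 : y ≠ z := fun e => by rw [e, M.diagonal] at hyz; omega
  have h3 : x ≠ z := fun e => by rw [e, M.diagonal] at hxz; omega
  rw [char_of_cert R hG hρ h0 ht cert_A3 (![∅, {x}, {x, z}, {x, y}, {x, y, z}] : Fin 5 → Set I) ?_ ?_ ?_ ?_
    (nd_A3 cs h hxy hyz hxz)]
  · have e2 : (![∅, {x}, {x, z}, {x, y}, {x, y, z}] : Fin 5 → Set I) 2 = {x, z} := rfl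
    have e3 : (![∅, {x}, {x, z}, {x, y}, {x, y, z}] : Fin 5 → Set I) 3 = {x, y} := rfl
    have e4 : (![∅, {x}, {x, z}, {x, y}, {x, y, z}] : Fin 5 → Set I) 4 = {x, y, z} := rfl
    have c2 : cA3 2 = -2 := rfl
    have c3 : cA3 3 = -4 := rfl
    have c4 : cA3 4 = 4 := rfl
    have c0 : cA3 0 = -1 := rfl
    have c1 : cA3 1 = 4 := rfl
    change ∑ k : Fin 5, _ * ((dP cs h T X ρ _ : ℕ) : ℂ) = 4 * ((dP cs h T X ρ {x, y, z} : ℕ) : ℂ) -
      4 * ((dP cs h T X ρ {x, y} : ℕ) : ℂ) - 2 * ((dP cs h T X ρ {x, z} : ℕ) : ℂ) +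
      4 * ((dP cs h T X ρ {x} : ℕ) : ℂ) - _
    have f0 : dP cs h T X ρ ∅ = finrank ℂ (fx ρ (RGD.B cs h T X)) := by unfold dP; rw [PJ_empty R]
    rw [Fin.sum_univ_five]
    simp only [e2, e3, e4, c0, c1, c2, c3, c4, Matrix.cons_val_zero, Matrix.cons_val_one, f0]
    push_cast
    ring
  · intro k
    fin_cases k
    · exact Set.empty_subset _
    · intro w hw; exact Or.inl hw
    · rintro w (rfl | rfl)
      · exact Or.inl rfl
      · exact Or.inr (Or.inr rfl)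
    · rintro w (rfl | rfl)
      · exact Or.inl rfl
      · exact Or.inr (Or.inl rfl)
    · exact subset_rfl
  · rfl
  · rfl
  · intro k hk hS
    have hy : y ∈ ({x, y, z} : Set I) := Or.inr (Or.inl rfl)
    have hz : z ∈ ({x, y, z} : Set I) := Or.inr (Or.inr rfl)
    fin_cases k
    · rw [← hS] at hy; exact hy
    · rw [← hS] at hy; exact h1.symm hy
    · rw [← hS] at hy
      rcases hy with e | e
      · exact h1.symm e
      · exact h2 e
    · rw [← hS] at hz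
      rcases hz with e | e
      · exact h3.symm e
      · exact h2.symm e
    · exact hk rfl

end

/-- the letters -/
def letD (t : ℕ) : Fin 4 := (![0, 2, 3, 1] : Fin 4 → Fin 4) (Fin.ofNat 4 t)

def stD (t : ℕ) : Fin 4 → ℤ :=
  (![![1, 1, 1, 1], ![-1, 2, 1, 1], ![-1, 3, -1, 1], ![-1, 4, -1, -1], ![3, -4, 3, 3], ![-3, -1, 3, 3],
    ![-3, 2, -3, 3], ![-3, 5, -3, -3], ![2, -5, 2, 2], ![-2, -3, 2, 2], ![-2, -1, -2, 2], ![-2, 1, -2, -2],
    ![-1, -1, -1, -1]] : Fin 13 → Fin 4 → ℤ) (Fin.ofNat 13 t)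

/-- the Cartan matrix of type `D_4` -/
def cartD : Fin 4 → Fin 4 → ℤ := ![![2, -1, 0, 0], ![-1, 2, -1, -1], ![0, -1, 2, 0], ![0, -1, 0, 2]]

theorem isCartanD : IsCartan (Cfsg.Agent.Nodes.TypeD.M 2) cartD :=
  ⟨by decide, by intro i j hij; fin_cases i <;> fin_cases j <;> first | exact absurd rfl hij | decide⟩

theorem word_dfour {W : Type*} [Group W] [Finite W] (cs : CoxeterSystem (Cfsg.Agent.Nodes.TypeD.M 2) W) :
    cs.IsReduced ((List.range 12).map letD) ∧ cs.wordProd ((List.range 12).map letD) = w0 cs :=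
  word_w0 cs isCartanD letD stD (by decide) (by decide) (by decide) (by decide)

theorem count_dfour : ∀ i, ((List.range 12).map letD).count i = 3 := by decide

section

variable {W : Type*} {Y : Type u} [Group W] [Group Y] [Finite W] [Finite Y] {p : ℕ} {T : Subgroup Y}
  {V : Type v} [AddCommGroup V] [Module ℂ V] {ρ : Representation ℂ Y V} [FiniteDimensional ℂ V]
  {cs : CoxeterSystem (Cfsg.Agent.Nodes.TypeD.M 2) W} {A : Fin 4 → Fin 4 → ℤ}
  {h : IsCartan (Cfsg.Agent.Nodes.TypeD.M 2) A} {n : Fin 4 → Y} {X : (Fin 4 → ℤ) → Subgroup Y} (R : RGD cs h p T n X)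

include R

theorem d4_k (i : Fin 4) : finrank ℂ (fx ρ (PJ cs h T X {i})) = finrank ℂ (fx ρ (PJ cs h T X {1})) := by
  fin_cases i
  · exact finrank_eq_of_three R (by decide)
  · rfl
  · exact finrank_eq_of_three R (by decide)
  · exact finrank_eq_of_three R (by decide)

/-- `m d = 24 a k` -/
theorem d4_det (hp : p.Prime) (hG : GG cs h T X = ⊤) (hρ : ρ.IsIrreducible) (h0 : fx ρ (RGD.B cs h T X) ≠ ⊥)
    {m : ℕ} {e : ℤ} (he : e = 1 ∨ e = -1)
    (hS : ∑ᶠ g ∈ Cfsg.Agent.H730.OZ.pSet p Y, ρ.character g = (e : ℂ) * (p : ℂ) ^ m * ρ.character 1)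
    {a : ℕ} (hq : ∀ i, qq X i = p ^ a) (i : Fin 4) :
    m * finrank ℂ (fx ρ (RGD.B cs h T X)) = 24 * a * finrank ℂ (fx ρ (PJ cs h T X {i})) := by
  have h1 := (Cfsg.Agent.H695.OneZero.Det.det_formula_count R hp hG hρ h0 he hS (a := fun _ => a) hq).2 _
    (word_dfour cs).1 (word_dfour cs).2
  rw [h1, Finset.sum_congr rfl fun j _ => by rw [count_dfour j]]
  change 2 * ∑ j, 3 * (a * dP cs h T X ρ {j}) = 24 * a * dP cs h T X ρ {i}
  have hk : ∀ j, dP cs h T X ρ {j} = dP cs h T X ρ {1} := fun j => d4_k R j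
  rw [Finset.sum_congr rfl fun j _ => by rw [hk j], Finset.sum_const, Finset.card_univ, Fintype.card_fin, hk i,
    smul_eq_mul]
  ring

/-- **`x = 12`: `d = 2 k`** -/
theorem d4_dim (hp : p.Prime) (hG : GG cs h T X = ⊤) (hρ : ρ.IsIrreducible) (h0 : fx ρ (RGD.B cs h T X) ≠ ⊥)
    {m : ℕ} {e : ℤ} (he : e = 1 ∨ e = -1)
    (hS : ∑ᶠ g ∈ Cfsg.Agent.H730.OZ.pSet p Y, ρ.character g = (e : ℂ) * (p : ℂ) ^ m * ρ.character 1)
    {a : ℕ} (ha : 0 < a) (hq : ∀ i, qq X i = p ^ a) (hm : m = 12 * a) (i : Fin 4) :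
    finrank ℂ (fx ρ (RGD.B cs h T X)) = 2 * finrank ℂ (fx ρ (PJ cs h T X {i})) := by
  have h1 := d4_det R hp hG hρ h0 he hS hq i
  rw [hm] at h1
  refine Nat.eq_of_mul_eq_mul_left (show 0 < 12 * a by positivity) ?_
  rw [h1]
  ring

/-- **`x = 12`: `χ = 0` on `Ell {i}`** -/
theorem d4_zero (hp : p.Prime) (hG : GG cs h T X = ⊤) (hρ : ρ.IsIrreducible) (h0 : fx ρ (RGD.B cs h T X) ≠ ⊥)
    {m : ℕ} {e : ℤ} (he : e = 1 ∨ e = -1)
    (hS : ∑ᶠ g ∈ Cfsg.Agent.H730.OZ.pSet p Y, ρ.character g = (e : ℂ) * (p : ℂ) ^ m * ρ.character 1)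
    {a : ℕ} (ha : 0 < a) (hq : ∀ i, qq X i = p ^ a) (hm : m = 12 * a) {i : Fin 4} {t : Y}
    (ht : Ell cs h T X {i} t) : ρ.character t = 0 := by
  rw [char_A1 R hG hρ h0 ht, d4_dim R hp hG hρ h0 he hS ha hq hm i]
  push_cast
  ring

/-- **`x = 12`: `χ` is even on `Ell A_3`** -/
theorem d4_even (hp : p.Prime) (hG : GG cs h T X = ⊤) (hρ : ρ.IsIrreducible) (h0 : fx ρ (RGD.B cs h T X) ≠ ⊥)
    {m : ℕ} {e : ℤ} (he : e = 1 ∨ e = -1)
    (hS : ∑ᶠ g ∈ Cfsg.Agent.H730.OZ.pSet p Y, ρ.character g = (e : ℂ) * (p : ℂ) ^ m * ρ.character 1)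
    {a : ℕ} (ha : 0 < a) (hq : ∀ i, qq X i = p ^ a) (hm : m = 12 * a) {x z : Fin 4} (hx : x ≠ 1) (hz : z ≠ 1)
    (hxz : x ≠ z) {t : Y} (ht : Ell cs h T X {x, 1, z} t) : ∃ c : ℤ, ρ.character t = 2 * (c : ℂ) := by
  have h1 : ∀ x z : Fin 4, x ≠ 1 → z ≠ 1 → x ≠ z → Cfsg.Agent.Nodes.TypeD.M 2 x 1 = 3 ∧
      Cfsg.Agent.Nodes.TypeD.M 2 1 z = 3 ∧ Cfsg.Agent.Nodes.TypeD.M 2 x z = 2 := by
    intro x z hx hz hxz
    fin_cases x <;> fin_cases z <;>
      first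
        | exact absurd rfl hx
        | exact absurd rfl hz
        | exact absurd rfl hxz
        | decide
  obtain ⟨h2, h3, h4⟩ := h1 x z hx hz hxz
  rw [char_A3 R hG hρ h0 h2 h3 h4 ht, d4_dim R hp hG hρ h0 he hS ha hq hm x]
  refine ⟨2 * finrank ℂ (fx ρ (PJ cs h T X {x, 1, z})) - 2 * finrank ℂ (fx ρ (PJ cs h T X {x, 1})) -
    finrank ℂ (fx ρ (PJ cs h T X {x, z})) + finrank ℂ (fx ρ (PJ cs h T X {x})), ?_⟩
  push_cast
  ring

end

end Cfsg.Agent.H639.OZ
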