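import Cfsg.Agent.H639.OZ.Mixed
import Cfsg.Agent.H644.OZ.Nd

/-!
# S4842: the end of the middle case `x = 2 n` for `PSp_6`, `Ω_7`, `PSp_8`, `Ω_9` (helper639)

`V^B ≠ 0`, `∑ dim V^{P_i} = dim V^B`, `χ ≠ 0` on one elliptic element of each of `A_{n-1}`, `A_{n-2} × end`:

* `deg_three`, `deg_four` : the degree; `2 (1 + q) χ(1) = q^4 (1 + q²) (1 + q³)`, `2 (1 + q) χ(1) = q^9 (1 + q³) (1 + q⁴)`;
* `typeB_refl` : `CoxeterMatrix.B m`;
* `deg_three_B`, `deg_four_B` : `M = CoxeterMatrix.B m`, `J = {i}ᶜ`.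
-/

set_option autoImplicit false
set_option linter.unusedSectionVars false

open Cfsg

namespace Cfsg.Agent.H639.OZ

open CoxeterSystem Cfsg.Agent.ChevalleyStructure.CoxeterGeom Cfsg.Agent.Tits.Roots Cfsg.Agent.Tits.Core
  Cfsg.Agent.Tits.Exchange Cfsg.Agent.Nodes.Reps Cfsg.Agent.Nodes.BNOf Cfsg.Agent.Nodes.StabComb
  Cfsg.Agent.Nodes.Bruhat Cfsg.Agent.Nodes.OppDec Cfsg.Agent.Nodes.LeviDec Cfsg.Agent.H985.VZ Module
  Cfsg.Agent.H200.VZ Cfsg.Agent.H898.VZ Cfsg.Agent.H644.OZ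

universe u v

section

variable {I W : Type*} {Y : Type u} [Fintype I] [DecidableEq I] [Group W] [Group Y] {M : CoxeterMatrix I}
  {cs : CoxeterSystem M W} {A : I → I → ℤ} {h : IsCartan M A} {p : ℕ} {T : Subgroup Y} {n : I → Y}
  {X : (I → ℤ) → Subgroup Y} {V : Type v} [AddCommGroup V] [Module ℂ V] {ρ : Representation ℂ Y V}
  (R : RGD cs h p T n X) [Finite W] [Finite Y] [FiniteDimensional ℂ V]

include R

/-- **type `B_3`/`C_3`** -/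
theorem deg_three (hG : GG cs h T X = ⊤) (hρ : ρ.IsIrreducible) (h0 : fx ρ (RGD.B cs h T X) ≠ ⊥)
    {e : Fin 3 ≃ I} (hB : TypeB M e) {q : ℕ} (hq : ∀ i, qq X i = q)
    (hdet : ∑ i, finrank ℂ (fx ρ (PJ cs h T X {i})) = finrank ℂ (fx ρ (RGD.B cs h T X)))
    {t t' : Y} (ht : Ell cs h T X {e 0, e 1} t) (hχ : ρ.character t ≠ 0)
    (ht' : Ell cs h T X {e 0, e 2} t') (hχ' : ρ.character t' ≠ 0) :
    finrank ℂ V * (2 * (1 + q)) = q ^ 4 * (1 + q ^ 2) * (1 + q ^ 3) := by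
  have hA11 : ∀ i j : Fin 2 × Fin 2, (nd cs ({e 0} ∪ {e 2})
      (((![∅, {e 0}] : Fin 2 → Set I) i.1) ∪ (![∅, {e 2}] : Fin 2 → Set I) i.2)
      (((![∅, {e 0}] : Fin 2 → Set I) j.1) ∪ (![∅, {e 2}] : Fin 2 → Set I) j.2) : ℤ) =
        gA1 i.1 j.1 * gA1 i.2 j.2 := by
    intro i j
    have hs : ∀ (a : I) (k : Fin 2), (![∅, {a}] : Fin 2 → Set I) k ⊆ {a} := by
      intro a k
      fin_cases k <;> simp
    rw [nd_prod cs (J := {e 0}) (J' := {e 2}) ?_ (hs _ _) (hs _ _) (hs _ _) (hs _ _)]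
    · push_cast
      rw [nd_A1 cs h, nd_A1 cs h]
    · rintro _ rfl _ rfl
      exact hB.two 0 2 (by decide)
  rcases end_three R hG hρ h0 e hB hdet (nd_A2 cs h (hB.three 0 1 rfl (by decide))) hA11 with h1 | h1 | h1
  · exact mixed_three R hG hρ hB hq h1.1 h1.2.1 h1.2.2.1 h1.2.2.2
  · exact absurd (h1 t' ht') hχ'
  · exact absurd (h1 t ht) hχ

/-- **type `B_4`/`C_4`** -/
theorem deg_four (hG : GG cs h T X = ⊤) (hρ : ρ.IsIrreducible) (h0 : fx ρ (RGD.B cs h T X) ≠ ⊥)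
    {e : Fin 4 ≃ I} (hB : TypeB M e) {q : ℕ} (hq : ∀ i, qq X i = q)
    (hdet : ∑ i, finrank ℂ (fx ρ (PJ cs h T X {i})) = finrank ℂ (fx ρ (RGD.B cs h T X)))
    {t t' : Y} (ht : Ell cs h T X {e 0, e 1, e 2} t) (hχ : ρ.character t ≠ 0)
    (ht' : Ell cs h T X {e 0, e 1, e 3} t') (hχ' : ρ.character t' ≠ 0) :
    finrank ℂ V * (2 * (1 + q)) = q ^ 9 * (1 + q ^ 3) * (1 + q ^ 4) := by
  have hA21 : ∀ i j : Fin 3 × Fin 2, (nd cs ({e 0, e 1} ∪ {e 3})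
      (((![∅, {e 0}, {e 0, e 1}] : Fin 3 → Set I) i.1) ∪ (![∅, {e 3}] : Fin 2 → Set I) i.2)
      (((![∅, {e 0}, {e 0, e 1}] : Fin 3 → Set I) j.1) ∪ (![∅, {e 3}] : Fin 2 → Set I) j.2) : ℤ) =
        gA2 i.1 j.1 * gA1 i.2 j.2 := by
    intro i j
    have hs : ∀ (a : I) (k : Fin 2), (![∅, {a}] : Fin 2 → Set I) k ⊆ {a} := by
      intro a k
      fin_cases k <;> simp
    have hs' : ∀ (a b : I) (k : Fin 3), (![∅, {a}, {a, b}] : Fin 3 → Set I) k ⊆ {a, b} := by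
      intro a b k
      fin_cases k
      · exact Set.empty_subset _
      · exact fun x hx => Or.inl hx
      · exact subset_rfl
    rw [nd_prod cs (J := {e 0, e 1}) (J' := {e 3}) ?_ (hs' _ _ _) (hs' _ _ _) (hs _ _) (hs _ _)]
    · push_cast
      rw [nd_A2 cs h (hB.three 0 1 rfl (by decide)), nd_A1 cs h]
    · rintro x (rfl | rfl) _ rfl
      · exact hB.two 0 3 (by decide)
      · exact hB.two 1 3 (by decide)
  have hu : ({e 0, e 1} ∪ {e 3} : Set I) = {e 0, e 1, e 3} := by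
    rw [Set.insert_union, Set.singleton_union]
  rcases end_four R hG hρ h0 e hB hdet
    (nd_A3 cs h (hB.three 0 1 rfl (by decide)) (hB.three 1 2 rfl (by decide)) (hB.two 0 2 (by decide))) hA21 with
    h1 | h1 | h1
  · exact mixed_four R hG hρ hB hq h1.1 h1.2.1 h1.2.2.1 h1.2.2.2.1 h1.2.2.2.2
  · exact absurd (h1 t' (by rw [hu]; exact ht')) hχ'
  · exact absurd (h1 t ht) hχ

end

/-- the Coxeter matrix of type `B_m` -/
theorem typeB_refl (m : ℕ) : TypeB (CoxeterMatrix.B m) (Equiv.refl (Fin m)) where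
  two i j hij := by
    have hne : i ≠ j := fun e => by rw [e] at hij; omega
    change (if i = j then 1 else if (i : ℕ) = m - 1 ∧ (j : ℕ) = m - 2 ∨ (j : ℕ) = m - 1 ∧ (i : ℕ) = m - 2 then 4
      else (if (j : ℕ) + 1 = i ∨ (i : ℕ) + 1 = j then 3 else 2)) = 2
    rw [if_neg hne, if_neg (by omega), if_neg (by omega)]
  three i j hij hi := by
    have hne : i ≠ j := fun e => by rw [e] at hij; omega
    change (if i = j then 1 else if (i : ℕ) = m - 1 ∧ (j : ℕ) = m - 2 ∨ (j : ℕ) = m - 1 ∧ (i : ℕ) = m - 2 then 4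
      else (if (j : ℕ) + 1 = i ∨ (i : ℕ) + 1 = j then 3 else 2)) = 3
    rw [if_neg hne, if_neg (by omega), if_pos (by omega)]
  four i j hij hi := by
    have hne : i ≠ j := fun e => by rw [e] at hij; omega
    change (if i = j then 1 else if (i : ℕ) = m - 1 ∧ (j : ℕ) = m - 2 ∨ (j : ℕ) = m - 1 ∧ (i : ℕ) = m - 2 then 4
      else (if (j : ℕ) + 1 = i ∨ (i : ℕ) + 1 = j then 3 else 2)) = 4
    rw [if_neg hne, if_pos (by omega)]

section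

variable {W : Type*} {Y : Type u} [Group W] [Group Y] [Finite W] [Finite Y] {p : ℕ} {T : Subgroup Y}
  {V : Type v} [AddCommGroup V] [Module ℂ V] {ρ : Representation ℂ Y V} [FiniteDimensional ℂ V]

/-- `M = CoxeterMatrix.B 3` -/
theorem deg_three_B {cs : CoxeterSystem (CoxeterMatrix.B 3) W} {A : Fin 3 → Fin 3 → ℤ}
    {h : IsCartan (CoxeterMatrix.B 3) A} {n : Fin 3 → Y} {X : (Fin 3 → ℤ) → Subgroup Y} (R : RGD cs h p T n X)
    (hG : GG cs h T X = ⊤) (hρ : ρ.IsIrreducible) (h0 : fx ρ (RGD.B cs h T X) ≠ ⊥) {q : ℕ} (hq : ∀ i, qq X i = q)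
    (hdet : ∑ i, finrank ℂ (fx ρ (PJ cs h T X {i})) = finrank ℂ (fx ρ (RGD.B cs h T X)))
    {t t' : Y} (ht : Ell cs h T X {2}ᶜ t) (hχ : ρ.character t ≠ 0)
    (ht' : Ell cs h T X {1}ᶜ t') (hχ' : ρ.character t' ≠ 0) :
    finrank ℂ V * (2 * (1 + q)) = q ^ 4 * (1 + q ^ 2) * (1 + q ^ 3) := by
  have e1 : ({2}ᶜ : Set (Fin 3)) = {(Equiv.refl (Fin 3)) 0, (Equiv.refl (Fin 3)) 1} := by
    ext i
    fin_cases i <;> simp
  have e2 : ({1}ᶜ : Set (Fin 3)) = {(Equiv.refl (Fin 3)) 0, (Equiv.refl (Fin 3)) 2} := by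
    ext i
    fin_cases i <;> simp
  exact deg_three R hG hρ h0 (typeB_refl 3) hq hdet (e1 ▸ ht) hχ (e2 ▸ ht') hχ'

/-- `M = CoxeterMatrix.B 4` -/
theorem deg_four_B {cs : CoxeterSystem (CoxeterMatrix.B 4) W} {A : Fin 4 → Fin 4 → ℤ}
    {h : IsCartan (CoxeterMatrix.B 4) A} {n : Fin 4 → Y} {X : (Fin 4 → ℤ) → Subgroup Y} (R : RGD cs h p T n X)
    (hG : GG cs h T X = ⊤) (hρ : ρ.IsIrreducible) (h0 : fx ρ (RGD.B cs h T X) ≠ ⊥) {q : ℕ} (hq : ∀ i, qq X i = q)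
    (hdet : ∑ i, finrank ℂ (fx ρ (PJ cs h T X {i})) = finrank ℂ (fx ρ (RGD.B cs h T X)))
    {t t' : Y} (ht : Ell cs h T X {3}ᶜ t) (hχ : ρ.character t ≠ 0)
    (ht' : Ell cs h T X {2}ᶜ t') (hχ' : ρ.character t' ≠ 0) :
    finrank ℂ V * (2 * (1 + q)) = q ^ 9 * (1 + q ^ 3) * (1 + q ^ 4) := by
  have e1 : ({3}ᶜ : Set (Fin 4)) = {(Equiv.refl (Fin 4)) 0, (Equiv.refl (Fin 4)) 1, (Equiv.refl (Fin 4)) 2} := by
    ext i
    fin_cases i <;> simp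
  have e2 : ({2}ᶜ : Set (Fin 4)) = {(Equiv.refl (Fin 4)) 0, (Equiv.refl (Fin 4)) 1, (Equiv.refl (Fin 4)) 3} := by
    ext i
    fin_cases i <;> simp
  exact deg_four R hG hρ h0 (typeB_refl 4) hq hdet (e1 ▸ ht) hχ (e2 ▸ ht') hχ'

end

end Cfsg.Agent.H639.OZ
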