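import Cfsg.Agent.H639.OZ.Poin
import Cfsg.Agent.H639.OZ.MidEnd
import Cfsg.Agent.H985.VZ.Cells
import Cfsg.Agent.H554.RG

/-!
# S4842: the degree of `ρ` if `dim V^B = 1`, type `B_m` (helper639)

* `yv i` : `1 / q_i` if `V^{P_i} = 0`, `q_i` otherwise;
* `deg_lin` : `χ(1) |B| ∑ ψ = |Y|`, `ψ (s_i w) = y_i ψ w`;
* `deg_B`   : `χ(1) ∏_{i < m} (1 + y + … + y^i) (1 + y^i z) = ∏_{i < m} (1 + q + … + q^i) (1 + q^i q')`;
* `mixed_three`, `mixed_four` : `V^{P_i} ≠ 0` only for the end node, `q = q'`: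
  `2 (1 + q) χ(1) = q^4 (1 + q²) (1 + q³)`, `2 (1 + q) χ(1) = q^9 (1 + q³) (1 + q⁴)`;
* `dvd_of_mul` : then `r ∣ χ(1)` for a prime `r ∣ q³ + 1` (`q⁴ + 1`), `r ∤ 2 (1 + q)`.
-/

set_option autoImplicit false
set_option linter.unusedSectionVars false

open Cfsg

namespace Cfsg.Agent.H639.OZ

open CoxeterSystem Cfsg.Agent.ChevalleyStructure.CoxeterGeom Cfsg.Agent.Tits.Roots Cfsg.Agent.Tits.Core
  Cfsg.Agent.Tits.Exchange Cfsg.Agent.Nodes.Reps Cfsg.Agent.Nodes.BNOf Cfsg.Agent.Nodes.StabComb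
  Cfsg.Agent.Nodes.Bruhat Cfsg.Agent.Nodes.OppDec Cfsg.Agent.Nodes.LeviDec Cfsg.Agent.H985.VZ Module
  Cfsg.Agent.H200.VZ Cfsg.Agent.H965.XZ

universe u v

variable {I W : Type*} {Y : Type u} [Fintype I] [DecidableEq I] [Group W] [Group Y] {M : CoxeterMatrix I}
  {cs : CoxeterSystem M W} {A : I → I → ℤ} {h : IsCartan M A} {p : ℕ} {T : Subgroup Y} {n : I → Y}
  {X : (I → ℤ) → Subgroup Y} {V : Type v} [AddCommGroup V] [Module ℂ V] {ρ : Representation ℂ Y V}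

omit [DecidableEq I] in
/-- the diagram as a path -/
theorem TypeB.bpath {m : ℕ} {e : Fin m ≃ I} (hB : TypeB M e) (h : IsCartan M A) (hm : 0 < m) :
    BPath A Set.univ (fun t => e ⟨t % m, Nat.mod_lt _ hm⟩) m := by
  have hv : ∀ t < m, (⟨t % m, Nat.mod_lt _ hm⟩ : Fin m) = ⟨t % m, Nat.mod_lt _ hm⟩ := fun _ _ => rfl
  have hmod : ∀ t < m, t % m = t := fun t ht => Nat.mod_eq_of_lt ht
  have hne : ∀ s < m, ∀ t < m, s ≠ t → e ⟨s % m, Nat.mod_lt _ hm⟩ ≠ e ⟨t % m, Nat.mod_lt _ hm⟩ := by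
    intro s hs t ht hst heq
    have h1 := congrArg Fin.val (e.injective heq)
    simp only [hmod s hs, hmod t ht] at h1
    exact hst h1
  refine ⟨fun t _ => Set.mem_univ _, fun t ht => ?_, fun t ht => ?_, fun s t hs ht => ?_, fun j _ hj => ?_,
    fun s hs t ht hst => ?_⟩
  · have h1 := hB.three ⟨t % m, Nat.mod_lt _ hm⟩ ⟨(t + 1) % m, Nat.mod_lt _ hm⟩
      (by simp only [hmod t (by omega), hmod (t + 1) (by omega)]) (by simp only [hmod t (by omega)]; exact ht)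
    rcases h.rel _ _ (hne t (by omega) (t + 1) (by omega) (by omega)) with h2 | h2 | h2 | h2
    · omega
    · exact h2.2
    · omega
    · omega
  · have h1 := hB.four ⟨t % m, Nat.mod_lt _ hm⟩ ⟨(t + 1) % m, Nat.mod_lt _ hm⟩
      (by simp only [hmod t (by omega), hmod (t + 1) (by omega)]) (by simp only [hmod t (by omega)]; exact ht)
    rcases h.rel _ _ (hne t (by omega) (t + 1) (by omega) (by omega)) with h2 | h2 | h2 | h2
    · omega
    · omega
    · exact h2.2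
    · omega
  · have h1 := hB.two ⟨s % m, Nat.mod_lt _ hm⟩ ⟨t % m, Nat.mod_lt _ hm⟩
      (by simp only [hmod s (by omega), hmod t (by omega)]; omega)
    rcases h.rel _ _ (hne s (by omega) t (by omega) (by omega)) with h2 | h2 | h2 | h2
    · exact h2.2
    · omega
    · omega
    · omega
  · exfalso
    obtain ⟨k, rfl⟩ := e.surjective j
    refine hj k k.2 ?_
    congr 1
    exact Fin.ext (hmod k k.2)
  · by_contra hne'
    exact hne s hs t ht hne' hst

/-- the value of the linear character of the Hecke algebra -/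
noncomputable def yv (cs : CoxeterSystem M W) {A : I → I → ℤ} (h : IsCartan M A) (T : Subgroup Y)
    (X : (I → ℤ) → Subgroup Y) (ρ : Representation ℂ Y V) (i : I) : ℂ :=
  open Classical in if finrank ℂ (fx ρ (PJ cs h T X {i})) = 0 then (qq X i : ℂ)⁻¹ else qq X i

section

variable (R : RGD cs h p T n X) [Finite W] [Finite Y] [FiniteDimensional ℂ V]

omit [Finite W] in
theorem qq_ne (i : I) : (qq X i : ℂ) ≠ 0 := by
  have : 0 < qq X i := Nat.card_pos
  exact_mod_cast this.ne'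

include R

theorem exists_TE_eq (hd : finrank ℂ (VB cs h T X ρ) = 1) (i : I) :
    ∃ a : ℂ, (∀ v, TE cs h T n X ρ i v = a • v) ∧
      (finrank ℂ (fx ρ (PJ cs h T X {i})) = 0 → a = -1) ∧ (finrank ℂ (fx ρ (PJ cs h T X {i})) ≠ 0 → a = qq X i) := by
  obtain ⟨v0, hv0, hv⟩ := finrank_eq_one_iff'.1 hd
  obtain ⟨a, ha⟩ := hv (TE cs h T n X ρ i v0)
  have hall : ∀ v, TE cs h T n X ρ i v = a • v := by
    intro v
    obtain ⟨c, rfl⟩ := hv v
    rw [map_smul, ← ha, smul_comm]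
  refine ⟨a, hall, fun h1 => ?_, fun h1 => ?_⟩
  · have h2 := (quad (ρ := ρ) R i).mem v0
    rw [mem_Fq] at h2
    rw [map_add, hall, hall v0] at h2
    have h3 : ((a + 1) * (a - qq X i)) • v0 = 0 := by
      have : ((a + 1) * (a - qq X i)) • v0 = (a • a • v0 + a • v0) - (qq X i : ℂ) • (a • v0 + v0) := by module
      rw [this, h2, sub_self]
    rcases smul_eq_zero.1 h3 with h4 | h4
    · rcases mul_eq_zero.1 h4 with h5 | h5
      · exact eq_neg_of_add_eq_zero_left h5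
      · exfalso
        have h6 : TE cs h T n X ρ i v0 = (qq X i : ℂ) • v0 := by rw [hall, sub_eq_zero.1 h5]
        have h7 := (TE_eq_iff R i v0).1 h6
        have h8 : fx ρ (PJ cs h T X {i}) = ⊥ := Submodule.finrank_eq_zero.1 h1
        rw [h8, Submodule.mem_bot] at h7
        exact hv0 (Subtype.ext h7)
    · exact absurd h4 hv0
  · have h2 : fx ρ (PJ cs h T X {i}) ≠ ⊥ := fun h3 => h1 (by rw [h3, finrank_bot])
    obtain ⟨w, hw, hw0⟩ := (Submodule.ne_bot_iff _).1 h2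
    have h3 := (TE_eq_iff R i (⟨w, fx_mono B_le_PJ hw⟩ : VB cs h T X ρ)).2 hw
    rw [hall] at h3
    have h4 : (a - qq X i) • (⟨w, fx_mono B_le_PJ hw⟩ : VB cs h T X ρ) = 0 := by
      rw [sub_smul, h3, sub_self]
    rcases smul_eq_zero.1 h4 with h5 | h5
    · exact sub_eq_zero.1 h5
    · exact absurd (congrArg Subtype.val h5) hw0

theorem yv_eq_of_three (hd : finrank ℂ (VB cs h T X ρ) = 1) {i j : I} (hm : M i j = 3) :
    yv cs h T X ρ i = yv cs h T X ρ j := by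
  obtain ⟨v0, hv0, -⟩ := finrank_eq_one_iff'.1 hd
  obtain ⟨a, ha, ha1, ha2⟩ := exists_TE_eq R hd i
  obtain ⟨b, hb, hb1, hb2⟩ := exists_TE_eq R hd j
  have hq := qq_eq R hm
  have h1 := congrArg (fun f : Module.End ℂ (VB cs h T X ρ) => f v0) (braid_three (ρ := ρ) R hm)
  simp only [Module.End.mul_apply, ha, hb, map_smul] at h1
  have h2 : (a * b * (a - b)) • v0 = 0 := by
    have : (a * b * (a - b)) • v0 = a • a • b • v0 - b • b • a • v0 := by module
    rw [this, h1, sub_self]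
  have h3 : a * b * (a - b) = 0 := (smul_eq_zero.1 h2).resolve_right hv0
  have hqi := qq_ne (X := X) i
  have hqj := qq_ne (X := X) j
  have ha0 : a ≠ 0 := by
    by_cases h4 : finrank ℂ (fx ρ (PJ cs h T X {i})) = 0
    · rw [ha1 h4]; norm_num
    · rw [ha2 h4]; exact hqi
  have hb0 : b ≠ 0 := by
    by_cases h4 : finrank ℂ (fx ρ (PJ cs h T X {j})) = 0
    · rw [hb1 h4]; norm_num
    · rw [hb2 h4]; exact hqj
  have hab : a = b := by
    rcases mul_eq_zero.1 h3 with h4 | h4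
    · rcases mul_eq_zero.1 h4 with h5 | h5
      · exact absurd h5 ha0
      · exact absurd h5 hb0
    · exact sub_eq_zero.1 h4
  have hneg : (-1 : ℂ) ≠ qq X i := by
    intro h5
    have h6 : ((1 + qq X i : ℕ) : ℂ) = 0 := by push_cast; rw [← h5]; ring
    exact absurd (Nat.cast_eq_zero.1 h6) (by omega)
  unfold yv
  by_cases h4 : finrank ℂ (fx ρ (PJ cs h T X {i})) = 0
  · by_cases h5 : finrank ℂ (fx ρ (PJ cs h T X {j})) = 0
    · rw [if_pos h4, if_pos h5, hq]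
    · exfalso
      rw [ha1 h4, hb2 h5, ← hq] at hab
      exact hneg hab
  · by_cases h5 : finrank ℂ (fx ρ (PJ cs h T X {j})) = 0
    · exfalso
      rw [ha2 h4, hb1 h5] at hab
      exact hneg hab.symm
    · rw [if_neg h4, if_neg h5, hq]

/-- **the degree if `dim V^B = 1`** -/
theorem deg_lin [Fintype W] (hG : GG cs h T X = ⊤) (hρ : ρ.IsIrreducible) (hd : finrank ℂ (fx ρ (RGD.B cs h T X)) = 1) :
    ∃ ψ : W → ℂ, ψ 1 = 1 ∧ (∀ i w, cs.length w < cs.length (cs.simple i * w) →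
      ψ (cs.simple i * w) = yv cs h T X ρ i * ψ w) ∧
      (finrank ℂ V : ℂ) * (Nat.card (RGD.B cs h T X) * ∑ w, ψ w) = Nat.card Y := by
  classical
  have hE : Vl cs h T X ρ 1 = fx ρ (RGD.B cs h T X) := by
    rw [Vl_eq R, show lamB R (1 : T →* ℂˣ) = 1 from MonoidHom.one_comp _, eig_one]
  have hd' : finrank ℂ (VB cs h T X ρ) = 1 := hd
  obtain ⟨v0, hv0, hv⟩ := finrank_eq_one_iff'.1 hd'
  have hE' : Vl cs h T X ρ 1 = ℂ ∙ (v0 : V) := by
    rw [hE]
    refine le_antisymm (fun w hw => ?_) ?_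
    · obtain ⟨c, hc⟩ := hv ⟨w, hw⟩
      exact Submodule.mem_span_singleton.2 ⟨c, congrArg Subtype.val hc⟩
    · rw [Submodule.span_singleton_le_iff_mem]
      exact v0.2
  have hv0' : (v0 : V) ≠ 0 := fun h1 => hv0 (Subtype.ext h1)
  choose a ha ha1 ha2 using fun i => exists_TE_eq (ρ := ρ) R hd i
  have hx : ∀ i, Tq R ρ i 1 (v0 : V) = (a i * (qq X i : ℂ)⁻¹) • (v0 : V) := by
    intro i
    rw [Tq_apply R (by rw [hE]; exact v0.2), show lamB R (1 : T →* ℂˣ) = 1 from MonoidHom.one_comp _]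
    have h1 := congrArg Subtype.val (ha i v0)
    rw [coe_TE, Submodule.coe_smul] at h1
    change av ρ (RGD.B cs h T X) (ρ (n i) (v0 : V)) = _
    rw [mul_comm, mul_smul, ← h1, smul_smul, inv_mul_cancel₀ (qq_ne (X := X) i), one_smul]
  obtain ⟨ψ, h1, h2, h3⟩ := degree R hG hρ (l := 1) (fun i g _ s t _ => rfl) hv0' hE' hx
  refine ⟨ψ, h1, fun i w hw => ?_, ?_⟩
  · rw [h2 i w hw]
    congr 1
    have hqi := qq_ne (X := X) i
    rw [MonoidHom.one_apply, inv_one, Units.val_one, mul_one]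
    unfold yv
    by_cases h4 : finrank ℂ (fx ρ (PJ cs h T X {i})) = 0
    · rw [if_pos h4, ha1 i h4]
      field_simp
    · rw [if_neg h4, ha2 i h4]
      field_simp
  · rw [← h3]
    congr 1
    change _ = LinearMap.trace ℂ V (ρ 1)
    rw [map_one, LinearMap.trace_one]

/-- **the degree if `dim V^B = 1`, type `B_m`** -/
theorem deg_B (hG : GG cs h T X = ⊤) (hρ : ρ.IsIrreducible) (hd : finrank ℂ (fx ρ (RGD.B cs h T X)) = 1) {m : ℕ}
    (hm : 0 < m) {e : Fin m ≃ I} (hB : TypeB M e) {q q' : ℕ}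
    (hq : ∀ i : Fin m, (i : ℕ) + 1 < m → qq X (e i) = q) (hq' : ∀ i : Fin m, (i : ℕ) + 1 = m → qq X (e i) = q')
    {y z : ℂ} (hy : ∀ i : Fin m, (i : ℕ) + 1 < m → yv cs h T X ρ (e i) = y)
    (hz : ∀ i : Fin m, (i : ℕ) + 1 = m → yv cs h T X ρ (e i) = z) :
    (finrank ℂ V : ℂ) * ∏ i ∈ Finset.range m, gs y (i + 1) * (1 + y ^ i * z) =
      ∏ i ∈ Finset.range m, gs (q : ℂ) (i + 1) * (1 + (q : ℂ) ^ i * q') := by
  classical
  have : Fintype W := Fintype.ofFinite W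
  obtain ⟨ψ, h1, h2, h3⟩ := deg_lin R hG hρ hd
  have hmod : ∀ t < m, t % m = t := fun t ht => Nat.mod_eq_of_lt ht
  have hodd : ∀ i j, Odd (M i j) → yv cs h T X ρ i = yv cs h T X ρ j := by
    intro i j hij
    by_cases hne : i = j
    · rw [hne]
    · rcases h.rel i j hne with h4 | h4 | h4 | h4
      · rw [h4.1] at hij; exact absurd hij (by decide)
      · exact yv_eq_of_three R hd h4.1
      · rw [h4.1] at hij; exact absurd hij (by decide)
      · rw [h4.1] at hij; exact absurd hij (by decide)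
  have h4 := sum_psi cs h hodd h1 h2 (hB.bpath h hm)
    (fun i => ⟨e.symm i, (e.symm i).2, by
      have : (⟨(e.symm i : ℕ) % m, Nat.mod_lt _ hm⟩ : Fin m) = e.symm i := Fin.ext (hmod _ (e.symm i).2)
      change e ⟨(e.symm i : ℕ) % m, Nat.mod_lt _ hm⟩ = i
      rw [this, Equiv.apply_symm_apply]⟩) (a := y) (b := z)
    (fun t ht => hy _ (by change t % m + 1 < m; rw [hmod t (by omega)]; exact ht))
    (fun t ht => hz _ (by change t % m + 1 = m; rw [hmod t (by omega)]; exact ht))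
  have h5 := card_PJ_bpath R (hB.bpath h hm) (y := q) (z := q')
    (fun t ht => hq _ (by change t % m + 1 < m; rw [hmod t (by omega)]; exact ht))
    (fun t ht => hq' _ (by change t % m + 1 = m; rw [hmod t (by omega)]; exact ht))
  have h6 : (Set.univ : Set I) \ {j | ∃ t < m, e ⟨t % m, Nat.mod_lt _ hm⟩ = j} = ∅ := by
    rw [Set.eq_empty_iff_forall_notMem]
    rintro j ⟨-, h7⟩
    refine h7 ⟨e.symm j, (e.symm j).2, ?_⟩
    have : (⟨(e.symm j : ℕ) % m, Nat.mod_lt _ hm⟩ : Fin m) = e.symm j := Fin.ext (hmod _ (e.symm j).2)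
    rw [this, Equiv.apply_symm_apply]
  rw [h6, Cfsg.Agent.H35.Poin.PJ_empty, Cfsg.Agent.H554.RG.PJ_univ R hG] at h5
  have h7 : Nat.card ↥(⊤ : Subgroup Y) = Nat.card Y := Subgroup.card_top
  rw [h7] at h5
  rw [h4, h5] at h3
  have hB0 : (Nat.card (RGD.B cs h T X) : ℂ) ≠ 0 := by
    have : 0 < Nat.card (RGD.B cs h T X) := Nat.card_pos
    exact_mod_cast this.ne'
  apply mul_left_cancel₀ hB0
  have h8 : ((∏ i ∈ Finset.range m, gs q (i + 1) * (1 + q ^ i * q') : ℕ) : ℂ) =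
      ∏ i ∈ Finset.range m, gs (q : ℂ) (i + 1) * (1 + (q : ℂ) ^ i * q') := by
    push_cast
    refine Finset.prod_congr rfl fun i _ => ?_
    congr 1
    unfold gs
    push_cast
    rfl
  rw [← h8, mul_left_comm, h3]
  push_cast
  ring

/-- **the mixed linear case, type `B_m`** -/
theorem mixed (hG : GG cs h T X = ⊤) (hρ : ρ.IsIrreducible) (hd : finrank ℂ (fx ρ (RGD.B cs h T X)) = 1) {m : ℕ}
    (hm : 0 < m) {e : Fin m ≃ I} (hB : TypeB M e) {q : ℕ} (hq : ∀ i, qq X i = q)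
    (h0 : ∀ i : Fin m, (i : ℕ) + 1 < m → finrank ℂ (fx ρ (PJ cs h T X {e i})) = 0)
    (h1 : ∀ i : Fin m, (i : ℕ) + 1 = m → finrank ℂ (fx ρ (PJ cs h T X {e i})) ≠ 0) :
    (finrank ℂ V : ℂ) * ∏ i ∈ Finset.range m, gs (q : ℂ)⁻¹ (i + 1) * (1 + ((q : ℂ)⁻¹) ^ i * q) =
      ∏ i ∈ Finset.range m, gs (q : ℂ) (i + 1) * (1 + (q : ℂ) ^ i * q) := by
  refine deg_B R hG hρ hd hm hB (fun i _ => hq _) (fun i _ => hq _) (fun i hi => ?_) (fun i hi => ?_)
  · unfold yv
    rw [if_pos (h0 i hi), hq]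
  · unfold yv
    rw [if_neg (h1 i hi), hq]

/-- type `B_3`/`C_3` -/
theorem mixed_three (hG : GG cs h T X = ⊤) (hρ : ρ.IsIrreducible) {e : Fin 3 ≃ I} (hB : TypeB M e) {q : ℕ}
    (hq : ∀ i, qq X i = q) (hd : finrank ℂ (fx ρ (RGD.B cs h T X)) = 1)
    (h0 : finrank ℂ (fx ρ (PJ cs h T X {e 0})) = 0) (h1 : finrank ℂ (fx ρ (PJ cs h T X {e 1})) = 0)
    (h2 : finrank ℂ (fx ρ (PJ cs h T X {e 2})) = 1) :
    finrank ℂ V * (2 * (1 + q)) = q ^ 4 * (1 + q ^ 2) * (1 + q ^ 3) := by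
  have hq0 : (q : ℂ) ≠ 0 := by rw [← hq (e 0)]; exact qq_ne (X := X) (e 0)
  have h3 := mixed R hG hρ hd (by norm_num) hB hq
    (fun i hi => by fin_cases i <;> [exact h0; exact h1; exact absurd hi (by decide)])
    (fun i hi => by
      fin_cases i <;> [exact absurd hi (by decide); exact absurd hi (by decide); exact (by change finrank ℂ (fx ρ (PJ cs h T X {e 2})) ≠ 0; rw [h2]; norm_num)])
  simp only [Finset.prod_range_succ, Finset.prod_range_zero, gs, Finset.sum_range_succ, Finset.sum_range_zero] at h3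
  have hq1 : (1 + q : ℂ) ≠ 0 := by
    have : ((1 + q : ℕ) : ℂ) ≠ 0 := Nat.cast_ne_zero.2 (by omega)
    simpa using this
  have hq2 : (1 + q + q ^ 2 : ℂ) ≠ 0 := by
    have : ((1 + q + q ^ 2 : ℕ) : ℂ) ≠ 0 := Nat.cast_ne_zero.2 (by omega)
    simpa using this
  have h4 : (finrank ℂ V : ℂ) * (2 * (1 + q)) = q ^ 4 * (1 + q ^ 2) * (1 + q ^ 3) := by
    apply mul_left_cancel₀ (mul_ne_zero hq1 hq2)
    field_simp at h3
    linear_combination h3
  exact_mod_cast h4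

/-- type `B_4`/`C_4` -/
theorem mixed_four (hG : GG cs h T X = ⊤) (hρ : ρ.IsIrreducible) {e : Fin 4 ≃ I} (hB : TypeB M e) {q : ℕ}
    (hq : ∀ i, qq X i = q) (hd : finrank ℂ (fx ρ (RGD.B cs h T X)) = 1)
    (h0 : finrank ℂ (fx ρ (PJ cs h T X {e 0})) = 0) (h1 : finrank ℂ (fx ρ (PJ cs h T X {e 1})) = 0)
    (h2 : finrank ℂ (fx ρ (PJ cs h T X {e 2})) = 0) (h3 : finrank ℂ (fx ρ (PJ cs h T X {e 3})) = 1) :
    finrank ℂ V * (2 * (1 + q)) = q ^ 9 * (1 + q ^ 3) * (1 + q ^ 4) := by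
  have hq0 : (q : ℂ) ≠ 0 := by rw [← hq (e 0)]; exact qq_ne (X := X) (e 0)
  have h5 := mixed R hG hρ hd (by norm_num) hB hq
    (fun i hi => by fin_cases i <;> [exact h0; exact h1; exact h2; exact absurd hi (by decide)])
    (fun i hi => by
      fin_cases i <;> [exact absurd hi (by decide); exact absurd hi (by decide); exact absurd hi (by decide);
        exact (by change finrank ℂ (fx ρ (PJ cs h T X {e 3})) ≠ 0; rw [h3]; norm_num)])
  simp only [Finset.prod_range_succ, Finset.prod_range_zero, gs, Finset.sum_range_succ, Finset.sum_range_zero] at h5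
  have hq1 : (1 + q : ℂ) ≠ 0 := by
    have : ((1 + q : ℕ) : ℂ) ≠ 0 := Nat.cast_ne_zero.2 (by omega)
    simpa using this
  have hq2 : (1 + q + q ^ 2 : ℂ) ≠ 0 := by
    have : ((1 + q + q ^ 2 : ℕ) : ℂ) ≠ 0 := Nat.cast_ne_zero.2 (by omega)
    simpa using this
  have hq3 : (1 + q ^ 2 : ℂ) ≠ 0 := by
    have : ((1 + q ^ 2 : ℕ) : ℂ) ≠ 0 := Nat.cast_ne_zero.2 (by omega)
    simpa using this
  have hq4 : (1 + q + q ^ 2 + q ^ 3 : ℂ) ≠ 0 := by
    have : ((1 + q + q ^ 2 + q ^ 3 : ℕ) : ℂ) ≠ 0 := Nat.cast_ne_zero.2 (by omega)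
    simpa using this
  have h4 : (finrank ℂ V : ℂ) * (2 * (1 + q)) = q ^ 9 * (1 + q ^ 3) * (1 + q ^ 4) := by
    apply mul_left_cancel₀ (mul_ne_zero (mul_ne_zero (mul_ne_zero hq1 hq2) hq3) hq4)
    field_simp at h5
    linear_combination h5
  exact_mod_cast h4

end

/-- the final step: `r ∣ χ(1)` -/
theorem dvd_of_mul {d a b r : ℕ} (hr : r.Prime) (h : d * (2 * a) = b) (h2 : ¬ r ∣ 2 * a) (hb : r ∣ b) : r ∣ d := by
  rw [← h] at hb
  exact (hr.dvd_mul.1 hb).resolve_right h2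

end Cfsg.Agent.H639.OZ
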