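import Cfsg.Agent.H279.VZ.Hd
import Cfsg.Agent.H644.OZ.OmTD
import Cfsg.Agent.H410.OZ.OmF
import Cfsg.Agent.H769.OZ.SpHD

/-!
# S4842: `HD` for the elliptic elements of `POmega_{2m+1}`, `m = 3, 4` (helper639)
-/

set_option autoImplicit false
set_option linter.unusedSectionVars false

open Cfsg

namespace Cfsg.Agent.H639.OZ

open CoxeterSystem Cfsg.Agent.ChevalleyStructure.CoxeterGeom Cfsg.Agent.Tits.Roots Cfsg.Agent.Nodes.TypeC
open Cfsg.Agent.Nodes Cfsg.Agent.Nodes.Comb Cfsg.Agent.Nodes.Reps Cfsg.Agent.Nodes.WittRoot Cfsg.Agent.Nodes.BNOf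
open Cfsg.Agent.Nodes.WittRGD Cfsg.Agent.Nodes.RGDLib Cfsg.Agent.Nodes.WittAll
open Cfsg.Agent.TitsThree Cfsg.Agent.TitsThree.Siegel Cfsg.Agent.TitsThree.WittFrame
  Cfsg.Agent.TitsThree.WittWeyl Cfsg.Agent.TitsThree.FrameCN
open Cfsg.Agent.Nodes.StabComb Cfsg.Agent.Nodes.Bruhat Cfsg.Agent.Nodes.LeviDec
open Cfsg.Agent.H62.PCFrame Cfsg.Agent.H62.PCWitt Cfsg.Agent.H985.VZ Module
open QuadraticMap Cfsg.Agent.LieClassical Cfsg.Agent.LieClassical.OrthCore Cfsg.Agent.LieClassical.OrthForms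
open Cfsg.Agent.TitsThree.KSideO Cfsg.Agent.TitsThree.WBridge Cfsg.Agent.Nodes.WittU Cfsg.Agent.Nodes.WittInst
open Cfsg.Agent.H410.OZ Cfsg.Agent.H644.OZ Cfsg.Agent.H200.VZ Cfsg.Agent.H769.OZ
open scoped MatrixGroups

variable {m : ℕ} {F : Type} [Field F]

theorem GE_mem_E (h2 : (2 : F) ≠ 0) (hG : LieClassical.OrthTrans.Good (oddForm m F)) {i : Fin m} (hi : 0 < i.1)
    {L : Type*} [Field L] [Algebra F L] (β : Basis {k : Fin m // k ≤ i} F L) {A : L ≃ₗ[F] L}
    (hA : LinearMap.det (A : L →ₗ[F] L) = 1) :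
    Cfsg.Agent.H279.VZ.GE (toFrame (wodd m F)) β A ∈ E (oddForm m F) := by
  have hnt : Nontrivial {k : Fin m // k ≤ i} := by
    refine ⟨⟨⟨i, le_rfl⟩, ⟨⟨0, by omega⟩, by rw [Fin.le_def]; exact Nat.zero_le _⟩, ?_⟩⟩
    intro h
    have h1 := congrArg (fun x : {k : Fin m // k ≤ i} => x.1.1) h
    simp only at h1
    omega
  have hF : ∃ a : F, a ≠ 0 ∧ a ≠ 1 := ⟨-1, neg_ne_zero.2 one_ne_zero, fun h => h2 (by
    have h1 : (2 : F) = 1 - (-1) := by ring
    rw [h1, h, sub_self])⟩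
  have h1 := Cfsg.Agent.H279.VZ.mem_commutator_of_det β hF hA
  have h4 : Cfsg.Agent.H279.VZ.GE (toFrame (wodd m F)) β A ∈
      (commutator (L ≃ₗ[F] L)).map (Cfsg.Agent.H279.VZ.GE (toFrame (wodd m F)) β) := Subgroup.mem_map_of_mem _ h1
  rw [commutator_def, Subgroup.map_commutator] at h4
  rw [← hG.commutator_eq_E]
  have h5 : (⊤ : Subgroup (L ≃ₗ[F] L)).map (Cfsg.Agent.H279.VZ.GE (toFrame (wodd m F)) β) ≤ O (oddForm m F) := by
    rintro _ ⟨B, -, rfl⟩
    exact mem_O_of_iso h2 (Cfsg.Agent.H279.VZ.isIso_GE (fun _ => rfl) B)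
  exact Subgroup.commutator_mono h5 h5 h4

variable [Finite F] {W : Type*} [Group W] (cs : CoxeterSystem (CoxeterMatrix.B m) W) (h2 : (2 : F) ≠ 0)
  (hG : LieClassical.OrthTrans.Good (oddForm m F)) (hp : ∃ p : (toFrame (wodd m F)).Adm, p.c ≠ 0)
  {p0 : (toFrame (wodd m F)).Adm} (hp0 : p0.c ≠ 0)

/-- **`HD` for the elements `gl z * D`** -/
theorem hd_gl {i : Fin m} (hi0 : 0 < i.1) (hi : (i : ℕ) + 1 = m ∨ (i : ℕ) + 2 = m) {L : Type} [Field L] [Finite L]
    [Algebra F L] (β : Basis {k : Fin m // k ≤ i} F L) {s : ℕ} {D : Vo m F ≃ₗ[F] Vo m F}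
    (hD : Comp (toFrame (wodd m F)) i s D) (z : Lˣ)
    (ht : gl (toFrame (wodd m F)) β z * D ∈ (model (wodd m F) hG hp).I) :
    HD cs (isCartan m) (WittModel.T (model (wodd m F) hG hp))
      (WittModel.nw (model (wodd m F) hG hp) (amb_O_of_two _ h2) p0) (WittModel.X (model (wodd m F) hG hp))
      (hh (model (wodd m F) hG hp) (fun _ => rfl) (amb_O_of_two _ h2) hp0) {i}ᶜ
      ((model (wodd m F) hG hp).φ ⟨gl (toFrame (wodd m F)) β z * D, ht⟩) := by
  obtain ⟨p, hcp⟩ := CharP.exists F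
  have hpp : Fact p.Prime := ⟨CharP.char_is_prime F p⟩
  refine hd_of hG hp (amb_O_of_two _ h2) cs h2 (fun _ => rfl) hp0 hp0 fun j x => ?_
  obtain ⟨a, ha, h⟩ := Cfsg.Agent.H279.VZ.exists_conj (M := model (wodd m F) hG hp) (cs := cs) (p := p)
    (AmbT.of_amb (amb_O_of_two _ h2) p) hp0 (by have := i.2; omega) (fun _ => rfl)
    (fun A hA => GE_mem_E h2 hG hi0 β hA) hi hD ht (fun k => x ^ cw j k)
  refine ⟨a, ha, ?_⟩
  rw [dd_φ]
  exact h (cM hG hp (sh j x) ⟨_, ht⟩).2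


/-- **`J = {m - 1}ᶜ = A_(m-1)`.** -/
theorem odd_last_HD (hm : m = 3 ∨ m = 4) {i : Fin m} (hi : i.1 + 1 = m) :
    ∃ t t' : Cfsg.POmega F ⇑(oddForm m F), Ell cs (isCartan m) (WittModel.T (model (wodd m F) hG hp))
      (WittModel.X (model (wodd m F) hG hp)) {i}ᶜ t ∧
      Ell cs (isCartan m) (WittModel.T (model (wodd m F) hG hp)) (WittModel.X (model (wodd m F) hG hp)) {i}ᶜ t' ∧
      ¬ IsConj t t' ∧
      HD cs (isCartan m) (WittModel.T (model (wodd m F) hG hp))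
      (WittModel.nw (model (wodd m F) hG hp) (amb_O_of_two _ h2) p0) (WittModel.X (model (wodd m F) hG hp))
      (hh (model (wodd m F) hG hp) (fun _ => rfl) (amb_O_of_two _ h2) hp0) {i}ᶜ t ∧
      HD cs (isCartan m) (WittModel.T (model (wodd m F) hG hp))
      (WittModel.nw (model (wodd m F) hG hp) (amb_O_of_two _ h2) p0) (WittModel.X (model (wodd m F) hG hp))
      (hh (model (wodd m F) hG hp) (fun _ => rfl) (amb_O_of_two _ h2) hp0) {i}ᶜ t' := by
  obtain ⟨p, hcp⟩ := CharP.exists F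
  have hpp : Fact p.Prime := ⟨CharP.char_is_prime F p⟩
  have hq := three_le F h2
  refine exists_two_P (M := model (wodd m F) hG hp) (p := p) (AmbT.of_amb (amb_O_of_two _ h2) p) hp0
    (by omega) cs (fun _ => rfl) i (comp_one (toFrame (wodd m F)) i) (fun U hU h0 _ => iso_odd_last h2 hi U hU h0)
    (nd_of fun v h => nd_odd h2 h)
    (e := 2) (fun g hg _ _ => ?_) (a := 1) (b := 2) ?_ ?_ ?_
    (fun β z ht => hd_gl cs h2 hG hp hp0 (by omega) (Or.inl hi) β (comp_one (toFrame (wodd m F)) i) z ht)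
  · rw [mul_one, pow_two]
    exact sq_mem_EQ hG (mem_O_of_iso h2 hg)
  all_goals rw [hi]; try rw [show 1 * 2 = 2 by norm_num]
  all_goals try rw [show 2 * 2 = 4 by norm_num]
  all_goals rcases hm with rfl | rfl
  · exact good3 hq (Or.inl rfl) (Or.inl rfl)
  · exact good4 hq (Or.inl rfl)
  · exact good3 hq (Or.inl rfl) (Or.inr rfl)
  · exact good4 hq (Or.inr rfl)
  · exact pair3 hq (Or.inl rfl)
  · exact pair4 hq

/-- **`m = 4`, `J = {2}ᶜ = A_2 × A_1`.** -/
theorem odd_pen_HD (hm : m = 4) {i : Fin m} (hi : i.1 + 2 = m) :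
    ∃ t t' : Cfsg.POmega F ⇑(oddForm m F), Ell cs (isCartan m) (WittModel.T (model (wodd m F) hG hp))
      (WittModel.X (model (wodd m F) hG hp)) {i}ᶜ t ∧
      Ell cs (isCartan m) (WittModel.T (model (wodd m F) hG hp)) (WittModel.X (model (wodd m F) hG hp)) {i}ᶜ t' ∧
      ¬ IsConj t t' ∧
      HD cs (isCartan m) (WittModel.T (model (wodd m F) hG hp))
      (WittModel.nw (model (wodd m F) hG hp) (amb_O_of_two _ h2) p0) (WittModel.X (model (wodd m F) hG hp))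
      (hh (model (wodd m F) hG hp) (fun _ => rfl) (amb_O_of_two _ h2) hp0) {i}ᶜ t ∧
      HD cs (isCartan m) (WittModel.T (model (wodd m F) hG hp))
      (WittModel.nw (model (wodd m F) hG hp) (amb_O_of_two _ h2) p0) (WittModel.X (model (wodd m F) hG hp))
      (hh (model (wodd m F) hG hp) (fun _ => rfl) (amb_O_of_two _ h2) hp0) {i}ᶜ t' := by
  obtain ⟨p, hcp⟩ := CharP.exists F
  have hpp : Fact p.Prime := ⟨CharP.char_is_prime F p⟩
  have hq := three_le F h2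
  obtain ⟨C, hC1, hC, hB⟩ := exists_C F (p := p)
  obtain ⟨B, hB0, hB⟩ := hB (odd_card F h2)
  let B' : GL (Fin 2) F := Matrix.GeneralLinearGroup.mkOfDetNeZero B hB0
  have hCB : (B' * B' : GL (Fin 2) F).1 = C.1 := hB.symm
  have hC' : Anis (B' * B' : GL (Fin 2) F).1 := by rw [hCB]; exact hC
  have hC1' : (B' * B') ^ (Nat.card F + 1) = 1 := by
    apply Units.ext
    rw [Units.val_pow_eq_pow_val, hCB, ← Matrix.SpecialLinearGroup.coe_pow, hC1]
    rfl
  obtain ⟨j, hj⟩ : ∃ j : Fin m, j.1 + 1 = m := ⟨⟨m - 1, by omega⟩, by change m - 1 + 1 = m; omega⟩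
  have hij : i < j := by rw [Fin.lt_def]; omega
  have key : ∀ (g : Vo m F ≃ₗ[F] Vo m F), (HO (oddForm m F)).IsIso g →
      g * adE j (B' * B') = adE j (B' * B') * g → (∀ v ∈ Mid (toFrame (wodd m F)) i, g v = v) →
      g ^ 2 * adE j (B' * B') ∈ (model (wodd m F) hG hp).I := fun g hg _ _ => by
    rw [pow_two, map_mul]
    exact (E (oddForm m F)).mul_mem (sq_mem_EQ hG (mem_O_of_iso h2 hg)) (sq_mem_EQ hG (adE_mem_O j B'))
  refine exists_two_P (M := model (wodd m F) hG hp) (p := p) (AmbT.of_amb (amb_O_of_two _ h2) p) hp0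
    (by omega) cs (fun _ => rfl) i (comp_odd hij hC1') (iso_odd h2 hi hj hC') (nd_of fun v h => nd_odd h2 h)
    (e := 2) key (a := 1) (b := 2) ?_ ?_ ?_
    (fun β z ht => hd_gl cs h2 hG hp hp0 (by omega) (Or.inr hi) β (comp_odd hij hC1') z ht)
  all_goals rw [show (i : ℕ) + 1 = 3 by omega]; try rw [show 1 * 2 = 2 by norm_num]
  all_goals try rw [show 2 * 2 = 4 by norm_num]
  · exact good3 hq (Or.inr rfl) (Or.inl rfl)
  · exact good3 hq (Or.inr rfl) (Or.inr rfl)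
  · exact pair3 hq (Or.inr rfl)

/-- **`POmega_7(q)`, `q ≥ 5`, `J = {1}ᶜ = A_1 × A_1`.** -/
theorem odd_pen3_HD {F : Type} [Field F] [Finite F] {W : Type*} [Group W] (cs : CoxeterSystem (CoxeterMatrix.B 3) W)
    (h2 : (2 : F) ≠ 0) (hG : LieClassical.OrthTrans.Good (oddForm 3 F)) (hp : ∃ p : (toFrame (wodd 3 F)).Adm, p.c ≠ 0)
    {p0 : (toFrame (wodd 3 F)).Adm} (hp0 : p0.c ≠ 0) (hq : 4 ≤ Nat.card F) {i : Fin 3} (hi : i.1 + 2 = 3) :
    ∃ t t' : Cfsg.POmega F ⇑(oddForm 3 F), Ell cs (isCartan 3) (WittModel.T (model (wodd 3 F) hG hp))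
      (WittModel.X (model (wodd 3 F) hG hp)) {i}ᶜ t ∧
      Ell cs (isCartan 3) (WittModel.T (model (wodd 3 F) hG hp)) (WittModel.X (model (wodd 3 F) hG hp)) {i}ᶜ t' ∧
      ¬ IsConj t t' ∧
      HD cs (isCartan 3) (WittModel.T (model (wodd 3 F) hG hp))
      (WittModel.nw (model (wodd 3 F) hG hp) (amb_O_of_two _ h2) p0) (WittModel.X (model (wodd 3 F) hG hp))
      (hh (model (wodd 3 F) hG hp) (fun _ => rfl) (amb_O_of_two _ h2) hp0) {i}ᶜ t ∧
      HD cs (isCartan 3) (WittModel.T (model (wodd 3 F) hG hp))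
      (WittModel.nw (model (wodd 3 F) hG hp) (amb_O_of_two _ h2) p0) (WittModel.X (model (wodd 3 F) hG hp))
      (hh (model (wodd 3 F) hG hp) (fun _ => rfl) (amb_O_of_two _ h2) hp0) {i}ᶜ t' := by
  obtain rfl : i = 1 := Fin.ext (by change i.1 = 1; omega)
  obtain ⟨p, hcp⟩ := CharP.exists F
  have hpp : Fact p.Prime := ⟨CharP.char_is_prime F p⟩
  let L := FiniteField.Extension F p 2
  have hfr : finrank F L = 2 := FiniteField.finrank_extension F p 2
  have : FiniteDimensional F L := Module.Finite.of_finite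
  let b2 : Basis (Fin 2) F L := finBasisOfFinrankEq F L hfr
  have hcL : Nat.card Lˣ = Nat.card F ^ 2 - 1 := by
    have h1 : Nat.card L = Nat.card F ^ 2 := FiniteField.natCard_extension F p 2
    rw [Nat.card_units, h1]
  obtain ⟨γ, hγ⟩ := IsCyclic.exists_generator (α := Lˣ)
  have hord : orderOf γ = Nat.card F ^ 2 - 1 := by rw [orderOf_eq_card_of_forall_mem_zpowers hγ, hcL]
  have hnotF : ∀ k : ℕ, k = 1 ∨ k = 2 → ∀ l : F, (γ : L) ^ k ≠ algebraMap F L l := by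
    intro k hk l hl
    have : Fintype F := Fintype.ofFinite F
    have hl0 : l ≠ 0 := by
      rintro rfl
      rw [map_zero] at hl
      exact pow_ne_zero _ γ.ne_zero hl
    have h3 : ((γ : L) ^ k) ^ (Nat.card F - 1) = 1 := by
      rw [hl, ← map_pow, Nat.card_eq_fintype_card, FiniteField.pow_card_sub_one_eq_one _ hl0, map_one]
    rw [← pow_mul, ← Units.val_pow_eq_pow_val, Units.val_eq_one, ← orderOf_dvd_iff_pow_eq_one, hord] at h3
    obtain ⟨c, hc⟩ : ∃ c, Nat.card F = c + 4 := ⟨Nat.card F - 4, by omega⟩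
    rw [hc] at h3
    have h4 : (c + 4) ^ 2 - 1 = (c + 3) * (c + 5) := by
      have : (c + 4) ^ 2 = (c + 3) * (c + 5) + 1 := by ring
      rw [this, Nat.add_sub_cancel]
    rw [h4, show c + 4 - 1 = c + 3 by omega] at h3
    have h5 := Nat.le_of_dvd (by rcases hk with rfl | rfl <;> positivity) h3
    rcases hk with rfl | rfl <;> nlinarith
  set A' : GL (Fin 2) F := Matrix.GeneralLinearGroup.mkOfDetNeZero (Algebra.leftMulMatrix b2 (γ : L))
    (det_mul_ne b2 γ.ne_zero) with hA'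
  have hA1 : A'.1 = Algebra.leftMulMatrix b2 (γ : L) := rfl
  have hAn : Anis A'.1 := by
    rw [hA1]
    exact anis_mul b2 fun l => by have := hnotF 1 (Or.inl rfl) l; rwa [pow_one] at this
  have hAn2 : Anis (A' * A').1 := by
    rw [Units.val_mul, hA1, ← map_mul, ← pow_two]
    exact anis_mul b2 (hnotF 2 (Or.inr rfl))
  obtain ⟨S, d, hSd, h00, h10, h01, h11⟩ := exists_SL A'
  have hne : (0 : Fin 3) ≠ 1 := by decide
  have hm1 : gl (toFrame (wodd 3 F)) (b2.reindex e2) γ * adE 2 A' ∈ E (oddForm 3 F) := by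
    rw [gl_eq b2 γ A' hA1 h00 h10 h01 h11 hne]
    have h9 := prod_mem (k := 0) (l := 1) (j := 2) hne (by decide) h2 hG (S := S) (d := d) S
    rwa [← hSd] at h9
  have hpow : (adE (2 : Fin 3) A') ^ (Nat.card F + 1) = 1 := by
    rw [← map_pow]
    refine LinearEquiv.ext fun v => ?_
    rw [adE_apply, Units.val_pow_eq_pow_val, hA1, ← map_pow]
    have h3 : (γ : L) ^ (Nat.card F + 1) = algebraMap F L (Algebra.norm F (γ : L)) := by
      rw [FiniteField.algebraMap_norm_eq_pow_sum, hfr, Finset.sum_range_succ, Finset.sum_range_one, pow_zero, pow_one,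
        add_comm]
    rw [h3, AlgHom.commutes]
    exact adL_scalar 2 (Algebra.norm_ne_zero_iff.2 γ.ne_zero) v
  have hij : (1 : Fin 3) < 2 := by decide
  have hD : Comp (toFrame (wodd 3 F)) 1 (Nat.card F + 1) (adE 2 A') :=
    { iso := (comp_odd hij (s := 0) (pow_zero A')).iso
      fix := (comp_odd hij (s := 0) (pow_zero A')).fix
      pow := fun v _ => by rw [hpow]; rfl }
  have hD2 := hD.sq
  have hm2 : gl (toFrame (wodd 3 F)) (b2.reindex e2) (γ ^ 2) * (adE 2 A' * adE 2 A') ∈ E (oddForm 3 F) := by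
    have e : gl (toFrame (wodd 3 F)) (b2.reindex e2) (γ ^ 2) * (adE 2 A' * adE 2 A') =
        gl (toFrame (wodd 3 F)) (b2.reindex e2) γ * adE 2 A' * (gl (toFrame (wodd 3 F)) (b2.reindex e2) γ * adE 2 A') := by
      have hc := gl_comm (β := b2.reindex e2) hD γ
      rw [pow_two, map_mul]
      generalize gl (toFrame (wodd 3 F)) (b2.reindex e2) γ = g at hc ⊢
      generalize adE (2 : Fin 3) A' = E at hc ⊢
      calc g * g * (E * E) = g * (g * E) * E := by group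
        _ = g * (E * g) * E := by rw [hc]
        _ = g * E * (g * E) := by group
    rw [e]
    exact mul_mem hm1 hm1
  have hm1' : gl (toFrame (wodd 3 F)) (b2.reindex e2) (γ ^ 1) * adE 2 A' ∈ E (oddForm 3 F) := by
    rw [pow_one]; exact hm1
  have hA := AmbT.of_amb (amb_O_of_two (wodd 3 F) h2) p
  have g1 := good2 hq (Or.inl rfl : (1 : ℕ) = 1 ∨ (1 : ℕ) = 2)
  have g2 := good2 hq (Or.inr rfl : (2 : ℕ) = 1 ∨ (2 : ℕ) = 2)
  have g12 := pair2 hq
  refine ⟨toPOmega hG ⟨_, hm1'⟩, toPOmega hG ⟨_, hm2⟩, ?_, ?_, ?_, ?_, ?_⟩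
  · exact ell_gl (M := model (wodd 3 F) hG hp) hA hp0 (by omega) hD hm1' (g1.adjoin hord rfl hfr)
      (g1.ne hord) (g1.root hord rfl hfr) (iso_odd h2 hi rfl hAn) (nd_of fun v h => nd_odd h2 h)
  · refine ell_gl (M := model (wodd 3 F) hG hp) hA hp0 (by omega) hD2 hm2 (g2.adjoin hord rfl hfr)
      (g2.ne hord) (g2.root hord rfl hfr) ?_ (nd_of fun v h => nd_odd h2 h)
    rw [← map_mul]
    exact iso_odd h2 hi rfl hAn2
  · exact not_isConj_gl (M := model (wodd 3 F) hG hp) hA (by omega) (fun _ => rfl) hD hD2 hm1' hm2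
      (fun c hc => g12.root hord rfl hfr hc) (fun c hc => g12.root_inv hord rfl hfr hc) (fun c hc => g12.ne hord rfl hc)
  · exact hd_gl cs h2 hG hp hp0 (i := 1) (by decide) (Or.inr rfl) _ hD _ hm1'
  · exact hd_gl cs h2 hG hp hp0 (i := 1) (by decide) (Or.inr rfl) _ hD2 _ hm2

end Cfsg.Agent.H639.OZ
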