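import Cfsg.Agent.H965.XZ.Walk

/-!
# S4842: Poincaré sums of one-dimensional characters of the Hecke algebra (helper639)

`ψ 1 = 1`, `ψ (s_i w) = y_i ψ w` if the length grows.

* `simple_conj`  : `u α_i = α_j` ==> `u s_i = s_j u`;
* `exists_weight`: a `W`-invariant function on the roots with the value `y_i` at `α_i` (`y_i = y_j` if `M i j` is odd);
* `psi_eq`       : `ψ w = Q x w`, the product of `x` over the inversions of `w`;
* `sum_psi`      : `∑ ψ = ∏_{i < k} (1 + y + … + y^i) (1 + y^i z)` in type `B_k`.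
-/

set_option autoImplicit false
set_option linter.unusedSectionVars false

open Cfsg

namespace Cfsg.Agent.H639.OZ

open CoxeterSystem Cfsg.Agent.ChevalleyStructure.CoxeterGeom Cfsg.Agent.Tits.Roots Cfsg.Agent.Tits.Core
  Cfsg.Agent.Tits.RootComb Cfsg.Agent.Tits.Exchange Cfsg.Agent.Nodes.Comb Cfsg.Agent.Nodes.Reps
  Cfsg.Agent.Nodes.BNOf Cfsg.Agent.Nodes.StabComb Cfsg.Agent.ChevalleyStructure.WeylAbstract
  Cfsg.Agent.H35.Poin Cfsg.Agent.H965.XZ

section weights

variable {I W : Type*} [Fintype I] [DecidableEq I] [Group W] {M : CoxeterMatrix I}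
  (cs : CoxeterSystem M W) {A : I → I → ℤ} (h : IsCartan M A)

theorem isLin_perm (w : W) : (rdata cs h).IsLin (perm cs h w) := ⟨rep cs h w, fun _ => rfl⟩

theorem perm_simple_eq (i : I) : perm cs h (cs.simple i) = (rdata cs h).refl i := rfl

theorem simple_conj [Finite W] {u : W} {i j : I} (hu : rep cs h u (sr i) = sr j) :
    u * cs.simple i * u⁻¹ = cs.simple j := by
  have := finite_rt cs h
  apply perm_injective cs h
  have h1 := (rdata cs h).conj_refl (u := perm cs h u) (isLin_perm cs h u)
    (by rw [← map_inv]; exact isLin_perm cs h u⁻¹) (j := i) (k := j) (Subtype.ext hu)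
  rw [map_mul, map_mul, map_inv]
  exact h1

/-- a character of `W` with values `±1` -/
theorem exists_sign (P : I → Prop) (hP : ∀ i j, Odd (M i j) → (P i ↔ P j)) :
    ∃ ε : W →* ℤˣ, (∀ i, P i → ε (cs.simple i) = -1) ∧ ∀ i, ¬ P i → ε (cs.simple i) = 1 := by
  classical
  have hf : M.IsLiftable (fun i => if P i then (-1 : ℤˣ) else 1) := by
    intro i j
    rcases Nat.even_or_odd (M i j) with he | ho
    · obtain ⟨k, hk⟩ := he
      rw [hk, ← two_mul, pow_mul]
      have : ((if P i then (-1 : ℤˣ) else 1) * if P j then (-1 : ℤˣ) else 1) ^ 2 = 1 := by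
        split_ifs <;> simp
      rw [this, one_pow]
    · have h1 := hP i j ho
      have : ((if P i then (-1 : ℤˣ) else 1) * if P j then (-1 : ℤˣ) else 1) = 1 := by
        by_cases h2 : P i
        · rw [if_pos h2, if_pos (h1.1 h2)]; simp
        · rw [if_neg h2, if_neg (fun h3 => h2 (h1.2 h3))]; simp
      rw [this, one_pow]
  refine ⟨cs.lift ⟨_, hf⟩, fun i hi => ?_, fun i hi => ?_⟩
  · rw [cs.lift_apply_simple hf, if_pos hi]
  · rw [cs.lift_apply_simple hf, if_neg hi]

variable {S : Type*}

theorem root_unique [Finite W] {y : I → S} (hy : ∀ i j, Odd (M i j) → y i = y j) {w w' : W} {i j : I}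
    (e : rep cs h w (sr i) = rep cs h w' (sr j)) : y i = y j := by
  by_contra hne
  obtain ⟨ε, h1, h2⟩ := exists_sign cs (fun k => y k = y i) (fun k l hkl => by rw [hy k l hkl])
  have h3 : rep cs h (w'⁻¹ * w) (sr i) = sr j := by
    rw [rep_mul_apply, e, rep_inv_apply]
  have h4 := congrArg ε (simple_conj cs h h3)
  rw [map_mul, map_mul, map_inv, mul_comm (ε _) (ε (cs.simple i)), mul_assoc, mul_inv_cancel, mul_one, h1 i rfl,
    h2 j (fun h5 => hne h5.symm)] at h4
  exact absurd h4 (by decide)

/-- a `W`-invariant function on the roots -/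
theorem exists_weight [Finite W] {y : I → S} (hy : ∀ i j, Odd (M i j) → y i = y j) :
    ∃ x : Rt cs h → S, (∀ i r, x ((rdata cs h).refl i r) = x r) ∧ (∀ r, x ((rdata cs h).neg r) = x r) ∧
      ∀ i, x ((rdata cs h).simple i) = y i := by
  classical
  have hex : ∀ r : Rt cs h, ∃ (w : W) (i : I), (r : I → ℤ) = rep cs h w (sr i) := fun r => r.2
  choose w k hwk using hex
  have key : ∀ (r : Rt cs h) (v : W) (i : I), (r : I → ℤ) = rep cs h v (sr i) → y (k r) = y i := by
    intro r v i hv
    exact root_unique cs h hy (w := w r) (w' := v) (by rw [← hwk r, ← hv])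
  refine ⟨fun r => y (k r), fun i r => ?_, fun r => ?_, fun i => ?_⟩
  · refine key _ (cs.simple i * w r) (k r) ?_
    change rep cs h (cs.simple i) (r : I → ℤ) = _
    rw [rep_mul_apply, ← hwk r]
  · refine key _ (w r * cs.simple (k r)) (k r) ?_
    change -(r : I → ℤ) = _
    rw [rep_mul_apply, rep_simple_sr, map_neg, ← hwk r]
  · exact key _ 1 i (by rw [map_one]; rfl)

end weights

section psi

variable {I W : Type*} [Fintype I] [DecidableEq I] [Group W] {M : CoxeterMatrix I}
  (cs : CoxeterSystem M W) {A : I → I → ℤ} (h : IsCartan M A) {S : Type*}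

theorem weight_perm {x : Rt cs h → S} (hx : ∀ i r, x ((rdata cs h).refl i r) = x r) (w : W) (r : Rt cs h) :
    x (perm cs h w r) = x r := by
  induction w using cs.simple_induction_left with
  | one => rw [map_one, Equiv.Perm.one_apply]
  | mul_simple_left w i ih =>
    rw [map_mul, Equiv.Perm.mul_apply, perm_simple_eq, hx, ih]

theorem Q_simple_mul [Fintype (Rt cs h)] [CommMonoid S] {x : Rt cs h → S}
    (hx : ∀ i r, x ((rdata cs h).refl i r) = x r) {i : I} {w : W} (hlt : cs.length w < cs.length (cs.simple i * w)) :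
    (rdata cs h).Q x (perm cs h (cs.simple i * w)) = x ((rdata cs h).simple i) * (rdata cs h).Q x (perm cs h w) := by
  classical
  set R := rdata cs h with hR
  have hβ : 0 ≤ rep cs h w⁻¹ (sr i) := by
    refine (lt_iff' cs h w⁻¹ i).1 ?_
    have h1 : w⁻¹ * cs.simple i = (cs.simple i * w)⁻¹ := by rw [mul_inv_rev, cs.inv_simple]
    rw [h1, cs.length_inv, cs.length_inv]
    exact hlt
  set β : Rt cs h := (perm cs h w).symm (R.simple i) with hβd
  have hwβ : perm cs h w β = R.simple i := by rw [hβd, Equiv.apply_symm_apply]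
  have hposβ : R.pos β := by
    have : β = perm cs h w⁻¹ (R.simple i) := by rw [map_inv]; rfl
    rw [this]
    exact hβ
  have hsi : ∀ r, perm cs h (cs.simple i * w) r = R.refl i (perm cs h w r) := fun r => by
    rw [map_mul, Equiv.Perm.mul_apply]; rfl
  have hset : Finset.univ.filter (fun r => R.pos r ∧ ¬ R.pos (perm cs h (cs.simple i * w) r)) =
      insert β (Finset.univ.filter (fun r => R.pos r ∧ ¬ R.pos (perm cs h w r))) := by
    ext r
    rw [Finset.mem_insert, Finset.mem_filter, Finset.mem_filter, hsi]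
    simp only [Finset.mem_univ, true_and]
    by_cases h1 : perm cs h w r = R.simple i
    · have hr : r = β := by rw [hβd, ← h1, Equiv.symm_apply_apply]
      refine ⟨fun _ => Or.inl hr, fun _ => ⟨hr ▸ hposβ, ?_⟩⟩
      rw [h1, R.refl_simple, R.pos_neg]
      exact fun h2 => h2 (R.simple_pos i)
    by_cases h2 : perm cs h w r = R.neg (R.simple i)
    · have hr : ¬ R.pos r := by
        intro hr
        have h3 : perm cs h w (R.neg r) = R.simple i := by
          have h4 : perm cs h w (R.neg r) = R.neg (perm cs h w r) := by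
            apply Subtype.ext
            change rep cs h w (-(r : I → ℤ)) = -(rep cs h w (r : I → ℤ))
            rw [map_neg]
          rw [h4, h2, R.neg_neg]
        have h5 : R.neg r = β := by rw [hβd, ← h3, Equiv.symm_apply_apply]
        have h6 := hposβ
        rw [← h5, R.pos_neg] at h6
        exact h6 hr
      constructor
      · rintro ⟨h3, -⟩
        exact absurd h3 hr
      · rintro (h3 | ⟨h3, -⟩)
        · exact absurd (h3 ▸ hposβ) hr
        · exact absurd h3 hr
    · rw [R.pos_refl_iff h1 h2]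
      constructor
      · exact fun h3 => Or.inr h3
      · rintro (h3 | h3)
        · exact absurd (by rw [h3, hwβ]) h1
        · exact h3
  unfold RData.Q
  rw [hset, Finset.prod_insert, ← weight_perm cs h hx w β, hwβ]
  rw [Finset.mem_filter, hwβ]
  rintro ⟨-, -, h1⟩
  exact h1 (R.simple_pos i)

theorem psi_eq [Fintype (Rt cs h)] [CommMonoid S] {x : Rt cs h → S}
    (hx : ∀ i r, x ((rdata cs h).refl i r) = x r) {ψ : W → S} (h1 : ψ 1 = 1)
    (hψ : ∀ i w, cs.length w < cs.length (cs.simple i * w) → ψ (cs.simple i * w) = x ((rdata cs h).simple i) * ψ w)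
    (w : W) : ψ w = (rdata cs h).Q x (perm cs h w) := by
  have key : ∀ k : ℕ, ∀ w : W, cs.length w = k → ψ w = (rdata cs h).Q x (perm cs h w) := by
    intro k
    induction k with
    | zero =>
      intro w hw
      rw [cs.length_eq_zero_iff] at hw
      rw [hw, h1, map_one, RData.Q_one]
    | succ k ih =>
      intro w hw
      have hne : w ≠ 1 := fun e => by rw [e, cs.length_one] at hw; omega
      obtain ⟨i, hi⟩ := cs.exists_leftDescent_of_ne_one hne
      have h2 : cs.simple i * (cs.simple i * w) = w := by rw [← mul_assoc, cs.simple_mul_simple_self, one_mul]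
      have h3 : cs.length (cs.simple i * w) + 1 = cs.length w := (cs.isLeftDescent_iff (w := w) (i := i)).1 hi
      have h4 : cs.length (cs.simple i * w) < cs.length (cs.simple i * (cs.simple i * w)) := by rw [h2]; omega
      rw [← h2, hψ i _ h4, Q_simple_mul cs h hx h4, ih _ (by omega)]
  exact key _ w rfl

include h in
/-- **the Poincaré sum in type `B_k`, two parameters** -/
theorem sum_psi [Finite W] [Fintype W] [CommSemiring S] {y : I → S} (hy : ∀ i j, Odd (M i j) → y i = y j) {ψ : W → S}
    (h1 : ψ 1 = 1) (hψ : ∀ i w, cs.length w < cs.length (cs.simple i * w) → ψ (cs.simple i * w) = y i * ψ w)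
    {k : ℕ} {c : ℕ → I} (hP : BPath A Set.univ c k) (hc : ∀ i, ∃ t < k, c t = i) {a b : S}
    (ha : ∀ t, t + 1 < k → y (c t) = a) (hb : ∀ t, t + 1 = k → y (c t) = b) :
    ∑ w, ψ w = ∏ i ∈ Finset.range k, gs a (i + 1) * (1 + a ^ i * b) := by
  classical
  have := finite_rt cs h
  have : Fintype (Rt cs h) := Fintype.ofFinite _
  obtain ⟨x, hx, hxn, hxs⟩ := exists_weight cs h hy
  have h2 := sum_bpath (rdata cs h) x hx hxn k (J := Set.univ) (c := c) hP (fun t ht => by rw [hxs, ha t ht])
    (fun t ht => by rw [hxs, hb t ht])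
  have h3 : (Set.univ : Set I) \ {j | ∃ t < k, c t = j} = ∅ := by
    rw [Set.eq_empty_iff_forall_notMem]
    rintro j ⟨-, h4⟩
    exact h4 (hc j)
  rw [h3, RData.sum_W_empty, mul_one] at h2
  rw [← h2, W_eq, Subgroup.coe_map, finsum_mem_image (perm_injective cs h).injOn]
  have h4 : (WJ cs (Set.univ : Set I) : Set W) = Set.univ := by
    have : WJ cs (Set.univ : Set I) = ⊤ := by
      unfold WJ
      rw [Set.image_univ]
      exact cs.subgroup_closure_range_simple
    rw [this]; rfl
  rw [h4, finsum_mem_univ, finsum_eq_sum_of_fintype]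
  exact Finset.sum_congr rfl fun w _ => psi_eq cs h hx h1 (fun i w hw => by rw [hxs]; exact hψ i w hw) w

end psi

end Cfsg.Agent.H639.OZ
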